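import Cfsg.Agent.H381.Car.Exc
import Cfsg.Agent.H712.GmnAb

/-!
# Carter subgroups: one class of involutions (S3852, helper381)

* `cc_of_one_class` : one class of involutions in `S` and `|K ∩ S|` even for all Carter subgroups `K`;
* `SylInv r Y` : an involution of `Y` fixed by `N(U)` modulo `U`, `U` a Sylow `r`-subgroup of `Y`;
* `even_of_sylInv` : then `|K ∩ S|` is even as soon as `K ∩ S` is a `{2, r}`-group;
* `power_of_cyclic` : elements of order `p` are conjugate to proper powers, if the Sylow `p`-subgroups are cyclic.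
-/

set_option autoImplicit false
set_option linter.unusedSectionVars false

namespace Cfsg.Agent.H381.Car

open Subgroup Pointwise
open Cfsg.Agent.Solvable.Carter Cfsg.Agent.H18.Carter

universe u

section

variable {G : Type u} [Group G] [Finite G] {S : Subgroup G} [S.Normal]

/-- **One class of involutions.** -/
theorem cc_of_one_class (c : Ctx G S)
    (hone : ∀ s ∈ S, ∀ t ∈ S, orderOf s = 2 → orderOf t = 2 → ∃ g : G, g * s * g⁻¹ = t)
    (heven : ∀ K : Subgroup G, IsCarter K → 2 ∣ Nat.card ↥(K ⊓ S)) : CC G := by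
  intro K H hK hH
  have : Fact (Nat.Prime 2) := ⟨Nat.prime_two⟩
  obtain ⟨z, hzS, hzK, hz2, hzc⟩ := exists_central (S := S) hK.1 (heven K hK)
  obtain ⟨w, hwS, hwH, hw2, hwc⟩ := exists_central (S := S) hH.1 (heven H hH)
  obtain ⟨g, hg⟩ := hone z hzS w hwS hz2 hw2
  refine c.conj_of_cent hK hH (z := z) ?_ hzc (g := g) ?_
  · rintro rfl
    rw [orderOf_one] at hz2
    exact absurd hz2 (by norm_num)
  · rw [hg]; exact hwc

/-- the same for a group isomorphic to `S` -/
theorem cc_of_one_class' (c : Ctx G S) {Y : Type*} [Group Y] (e : S ≃* Y)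
    (hone : ∀ s t : Y, orderOf s = 2 → orderOf t = 2 → IsConj s t)
    (heven : ∀ K : Subgroup G, IsCarter K → 2 ∣ Nat.card ↥(K ⊓ S)) : CC G := by
  refine cc_of_one_class c (fun s hs t ht hs2 ht2 => ?_) heven
  obtain ⟨g, hg⟩ := isConj_iff.1 (hone (e ⟨s, hs⟩) (e ⟨t, ht⟩) (by rw [MulEquiv.orderOf_eq, orderOf_mk, hs2])
    (by rw [MulEquiv.orderOf_eq, orderOf_mk, ht2]))
  refine ⟨(e.symm g : S), ?_⟩
  have h3 := congrArg (fun y => ((e.symm y : S) : G)) hg
  simpa using h3

end

/-- an involution fixed modulo a Sylow `r`-subgroup by its normaliser -/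
def SylInv (r : ℕ) (Y : Type*) [Group Y] : Prop :=
  ∃ U : Subgroup Y, IsPGroup r U ∧ ¬ r ∣ U.index ∧ ∃ z : Y, orderOf z = 2 ∧
    ∀ α : MulAut Y, (∀ u, α u ∈ U ↔ u ∈ U) → z⁻¹ * α z ∈ U

theorem SylInv.congr {r : ℕ} {Y Y' : Type*} [Group Y] [Group Y'] (e : Y ≃* Y') (h : SylInv r Y) : SylInv r Y' := by
  obtain ⟨U, hU, hi, z, hz, hα⟩ := h
  refine ⟨U.map e.toMonoidHom, hU.map _, ?_, e z, by rw [MulEquiv.orderOf_eq, hz], fun α hαU => ?_⟩
  · rw [Subgroup.index_map_of_bijective (f := e.toMonoidHom) e.bijective]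
    exact hi
  · have hmem : ∀ y, e y ∈ U.map e.toMonoidHom ↔ y ∈ U := by
      intro y
      constructor
      · rintro ⟨w, hw, hwy⟩
        exact e.injective hwy ▸ hw
      · exact fun hy => ⟨y, hy, rfl⟩
    have h1 := hα ((e.trans α).trans e.symm) (fun u => by
      rw [← hmem, ← hmem]
      simp only [MulEquiv.trans_apply, MulEquiv.apply_symm_apply]
      exact hαU _)
    rw [← hmem, map_mul, map_inv] at h1
    simpa using h1

section

variable {G : Type u} [Group G] [Finite G] {S : Subgroup G} [S.Normal]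

/-- **`|K ∩ S|` is even.** -/
theorem even_of_sylInv (hF : Fpf.{u}) (c : Ctx G S) {Y : Type*} [Group Y] (e : S ≃* Y) {r : ℕ} [hr : Fact r.Prime]
    (hr2 : r ≠ 2) (hY : SylInv r Y) {K : Subgroup G} (hK : IsCarter K)
    (hd : ∀ l : ℕ, l.Prime → l ∣ Nat.card ↥(K ⊓ S) → l = 2 ∨ l = r) : 2 ∣ Nat.card ↥(K ⊓ S) := by
  by_contra h2
  have hKr : IsPGroup r ↥(K ⊓ S) := by
    rw [IsPGroup.iff_card]
    refine ⟨_, Nat.eq_prime_pow_of_unique_prime_dvd Nat.card_pos.ne' ?_⟩
    intro l hl hld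
    rcases hd l hl hld with h | h
    · exact absurd (h ▸ hld) h2
    · exact h
  obtain ⟨P, hPS, hPr, hPi, hKP⟩ := lemma_x hF c.min S hK hKr
  obtain ⟨U, hU, hUi, z, hz, hα⟩ := hY.congr e.symm
  have hp1 : IsPGroup r (P.subgroupOf S) := hPr.comap_of_injective S.subtype S.subtype_injective
  obtain ⟨s, hs⟩ := MulAction.exists_smul_eq S (hp1.toSylow hPi) (hU.toSylow hUi)
  have hs' : MulAut.conj s • P.subgroupOf S = U := by
    have := congrArg (fun Q : Sylow r S => (Q : Subgroup S)) hs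
    exact this
  -- membership
  have hmem : ∀ x : S, x ∈ U ↔ ((s⁻¹ * x * s : S) : G) ∈ P := by
    intro x
    rw [← hs', mem_cj, mem_subgroupOf]
  have hzz : z⁻¹ = z := by
    rw [inv_eq_iff_mul_eq_one, ← sq, ← hz, pow_orderOf_eq_one]
  set w : S := s⁻¹ * z * s with hw
  have hww : w⁻¹ = w := by
    rw [hw, mul_inv_rev, mul_inv_rev, inv_inv, hzz, mul_assoc]
  have hw2 : orderOf w = 2 := by
    have h1 : orderOf (s⁻¹ * z * s) = orderOf z := by
      have h2 : s⁻¹ * z * s = MulAut.conj s⁻¹ z := by rw [MulAut.conj_apply, inv_inv]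
      rw [h2]
      exact orderOf_injective (MulAut.conj s⁻¹).toMonoidHom (MulAut.conj s⁻¹).injective z
    rw [hw, h1, hz]
  have key : ∀ k ∈ normalizer (P : Set G), (w : G) * k * (w : G)⁻¹ * k⁻¹ ∈ P := by
    intro k hk
    have h1 := hα (MulAut.conj s * MulAut.conjNormal k * MulAut.conj s⁻¹) (fun u => by
      rw [hmem, hmem]
      have e1 : ((s⁻¹ * ((MulAut.conj s * MulAut.conjNormal k * MulAut.conj s⁻¹ : MulAut S) u) * s : S) : G) =
          k * ((s⁻¹ * u * s : S) : G) * k⁻¹ := by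
        simp only [MulAut.mul_apply, MulAut.conj_apply, coe_mul, coe_inv, MulAut.conjNormal_apply, inv_inv]
        group
      rw [e1]
      exact (mem_normalizer_iff.1 hk _).symm)
    rw [hmem] at h1
    have e2 : ((s⁻¹ * (z⁻¹ * ((MulAut.conj s * MulAut.conjNormal k * MulAut.conj s⁻¹ : MulAut S) z)) * s : S) : G) =
        ((w⁻¹ : S) : G) * (k * (w : G) * k⁻¹) := by
      rw [hw]
      simp only [MulAut.mul_apply, MulAut.conj_apply, coe_mul, coe_inv, MulAut.conjNormal_apply, inv_inv, mul_inv_rev]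
      group
    rw [e2, hww] at h1
    have e3 : (w : G) * k * (w : G)⁻¹ * k⁻¹ = (w : G) * (k * (w : G) * k⁻¹) := by
      have h4 : (w : G)⁻¹ = (w : G) := by
        have := congrArg (fun y : S => (y : G)) hww
        simpa using this
      rw [h4]; group
    rw [e3]
    exact h1
  have hPb : P ≠ ⊥ := by
    rintro rfl
    rw [relIndex_bot_left] at hPi
    refine inf_ne_bot hF c hK ?_
    obtain ⟨n, hn⟩ := IsPGroup.iff_card.mp hKr
    rcases Nat.eq_zero_or_pos n with h0 | h0
    · rw [h0, pow_zero] at hn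
      exact card_eq_one.mp hn
    · exfalso
      refine hPi ((dvd_pow_self r h0.ne').trans ?_)
      rw [← hn]
      exact card_dvd_of_le inf_le_right
  have hPnS : P ≠ S := by
    rintro rfl
    apply c.S_not_solvable
    have : Group.IsNilpotent P := hPr.isNilpotent
    infer_instance
  have hwP : (w : G) ∈ normalizer (P : Set G) := by
    rw [← cj_eq_self_iff]
    have h1 : ∀ x ∈ P, (w : G) * x * (w : G)⁻¹ ∈ P := by
      intro x hx
      have h2 := key x (le_normalizer hx)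
      have h3 := mul_mem h2 hx
      rwa [inv_mul_cancel_right] at h3
    have h4 : (w : G)⁻¹ = (w : G) := by
      have := congrArg (fun y : S => (y : G)) hww
      simpa using this
    apply le_antisymm
    · intro x hx
      rw [mem_cj] at hx
      have h2 := h1 _ hx
      have e4 : (w : G) * ((w : G)⁻¹ * x * (w : G)) * (w : G)⁻¹ = x := by group
      rwa [e4] at h2
    · intro x hx
      rw [mem_cj]
      have h2 := h1 x hx
      rw [h4] at h2 ⊢
      exact h2
  have hwK := w_principle_S c hK hPb hPS hPnS hKP w.2 hwP fun k hk => key k (hKP hk)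
  have hpg : IsPGroup r ↥((K ⊓ S) ⊔ P) := hKr.to_sup_of_normal_right' hPr (inf_le_left.trans hKP)
  obtain ⟨n, hn⟩ := (IsPGroup.iff_orderOf.1 hpg) ⟨(w : G), hwK⟩
  rw [orderOf_mk, Subgroup.orderOf_coe, hw2] at hn
  have h5 : (2 : ℕ) ∣ r ^ n := ⟨1, by rw [← hn]⟩
  have h6 := (Nat.prime_dvd_prime_iff_eq Nat.prime_two hr.out).1 (Nat.prime_two.dvd_of_dvd_pow h5)
  exact hr2 h6.symm

end

section Cyclic

variable {S : Type*} [Group S] [Finite S] {p : ℕ} [hp : Fact p.Prime]

/-- cyclic Sylow `p`-subgroups -/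
theorem power_of_cyclic [IsSimpleGroup S] (hna : ¬ ∀ x y : S, x * y = y * x) 
    (hcyc : ∀ Q : Sylow p S, IsCyclic (Q : Subgroup S)) {z : S} (hz : orderOf z = p) :
    ∃ g : S, g * z * g⁻¹ ≠ z ∧ g * z * g⁻¹ ∈ zpowers z := by
  have hd : p ∣ Nat.card S := hz ▸ orderOf_dvd_natCard z
  have hzp : IsPGroup p (zpowers z) := by
    refine IsPGroup.of_card (n := 1) ?_
    rw [Nat.card_zpowers, hz, pow_one]
  obtain ⟨Q, hQ⟩ := hzp.exists_le_sylow
  have hzQ : z ∈ Q := hQ (mem_zpowers z)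
  have hcQ := hcyc Q
  have hab : ∀ x ∈ Q, ∀ y ∈ Q, x * y = y * x := by
    intro x hx y hy
    have h1 : (⟨x, hx⟩ : (Q : Subgroup S)) * ⟨y, hy⟩ = ⟨y, hy⟩ * ⟨x, hx⟩ := by
      let _ : CommGroup (Q : Subgroup S) := IsCyclic.commGroup
      exact mul_comm _ _
    exact congrArg Subtype.val h1
  have h1 := Cfsg.Agent.H712.Gmn.not_normalizer_le_centralizer hna hd Q
  have h2 : ∃ s ∈ normalizer ((Q : Subgroup S) : Set S), ∃ x ∈ Q, x ^ p = 1 ∧ s * x * s⁻¹ ≠ x := by
    by_contra hcon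
    push Not at hcon
    exact h1 (Cfsg.Agent.H712.Gmn.centralizes_of_omega Q hab hcon)
  obtain ⟨s, hs, x, hx, hxp, hsx⟩ := h2
  -- every element of order dividing `p` of `Q` lies in `⟨z⟩`
  have key : ∀ y ∈ Q, y ^ p = 1 → y ∈ zpowers z := by
    intro y hy hyp
    have hcard : Nat.card {x : (Q : Subgroup S) // x ^ p = 1} ≤ p := by
      classical
      let _ : Fintype (Q : Subgroup S) := Fintype.ofFinite _
      rw [Nat.card_eq_fintype_card, Fintype.card_subtype]
      exact IsCyclic.card_pow_eq_one_le hp.out.pos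
    let f : ↥(zpowers z) → {x : (Q : Subgroup S) // x ^ p = 1} := fun w => ⟨⟨w, hQ w.2⟩, by
      apply Subtype.ext
      have h3 : orderOf (w : S) ∣ p := by
        have h4 := orderOf_dvd_natCard w
        rw [Nat.card_zpowers, hz] at h4
        rwa [← Subgroup.orderOf_coe] at h4
      exact orderOf_dvd_iff_pow_eq_one.1 h3⟩
    have hf : Function.Injective f := by
      intro a b hab
      apply Subtype.ext
      exact congrArg (fun t : {x : (Q : Subgroup S) // x ^ p = 1} => ((t.1 : (Q : Subgroup S)) : S)) hab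
    have hbij : Function.Bijective f := by
      rw [Nat.bijective_iff_injective_and_card]
      refine ⟨hf, le_antisymm (Nat.card_le_card_of_injective f hf) ?_⟩
      rw [Nat.card_zpowers, hz]
      exact hcard
    obtain ⟨w, hw⟩ := hbij.2 ⟨⟨y, hy⟩, Subtype.ext hyp⟩
    have h5 := congrArg (fun t : {x : (Q : Subgroup S) // x ^ p = 1} => ((t.1 : (Q : Subgroup S)) : S)) hw
    have h6 : (w : S) = y := h5
    rw [← h6]
    exact w.2
  have hzp1 : z ^ p = 1 := by rw [← hz, pow_orderOf_eq_one]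
  refine ⟨s, ?_, ?_⟩
  · intro h3
    apply hsx
    obtain ⟨i, hi⟩ := key x hx hxp
    have hi' : z ^ i = x := hi
    rw [← hi', ← conj_zpow, h3]
  · refine key _ ?_ ?_
    · exact (mem_normalizer_iff.1 hs z).1 hzQ
    · rw [conj_pow, hzp1, mul_one, mul_inv_cancel]

end Cyclic

/-- cyclic Sylow `l`-subgroups: `l ∤ |K ∩ S|` -/
theorem not_dvd_of_cyclic {G : Type u} [Group G] [Finite G] {S : Subgroup G} [S.Normal] (c : Ctx G S) {Y : Type*}
    [Group Y] (e : S ≃* Y) {l : ℕ} [hl : Fact l.Prime] (h : ∀ Q : Sylow l Y, IsCyclic (Q : Subgroup Y))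
    {K : Subgroup G} (hK : IsCarter K) : ¬ l ∣ Nat.card ↥(K ⊓ S) := by
  have hs := c.simple
  have hfin : Finite Y := Finite.of_equiv S e.toEquiv
  have hsY : IsSimpleGroup Y := e.symm.isSimpleGroup
  have hnY : ¬ ∀ x y : Y, x * y = y * x := by
    intro h1
    apply c.na
    intro a b
    apply e.injective
    rw [map_mul, map_mul, h1]
  refine not_dvd_of_power c (r := l) (fun z hz ho => ?_) hK
  obtain ⟨g, hg1, hg2⟩ := power_of_cyclic (p := l) hnY h (z := e ⟨z, hz⟩) (by rw [MulEquiv.orderOf_eq, orderOf_mk, ho])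
  have h3 : e (e.symm g * ⟨z, hz⟩ * (e.symm g)⁻¹) = g * e ⟨z, hz⟩ * g⁻¹ := by simp
  refine ⟨(e.symm g : S), ?_, ?_⟩
  · intro h4
    apply hg1
    rw [← h3]
    congr 1
    exact Subtype.ext h4
  · obtain ⟨i, hi⟩ := hg2
    refine ⟨i, ?_⟩
    have hi' : (e ⟨z, hz⟩) ^ i = g * e ⟨z, hz⟩ * g⁻¹ := hi
    rw [← map_zpow, ← h3] at hi'
    exact congrArg Subtype.val (e.injective hi')

end Cfsg.Agent.H381.Car
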