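import Cfsg.Agent.H381.Car.RadUntw
import Cfsg.Agent.H486.OnE7
import Cfsg.Agent.H18.Carter.Rows

/-!
# Carter subgroups: the rows `G₂(q)`, `F₄(q)`, `E₇(q)`, `E₈(q)`, `q` odd (S3852, helper381)

* `ctx_of` : the almost simple situation with one Carter subgroup `K`, `K S = G`, gives `Ctx G S`;
* `two_of_rad` : `K ∩ S` is a `2`-group from `RadY` and the reality of the elements of odd prime order `≠ r`;
* `two_g2`, `two_f4`, `two_e7`, `two_e8` : `K ∩ S` is a `2`-group;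
* `row_g2`, `row_f4`, `row_e7`, `row_e8` : Carter subgroups are conjugate.
-/

set_option autoImplicit false
set_option linter.unusedSectionVars false

namespace Cfsg.Agent.H381.Car

open Subgroup Pointwise
open Cfsg.Agent.Solvable.Carter Cfsg.Agent.H18.Carter
open Cfsg Cfsg.Lie
open Cfsg.Agent.BpExc Cfsg.Agent.BpExc.FamInst Cfsg.Agent.BpExc.RowsUntw Cfsg.Agent.H696.GmnUntw

universe u

section

variable {G : Type u} [Group G] [Finite G] {S : Subgroup G} [S.Normal]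

/-- **`Ctx` from one Carter subgroup.** -/
theorem ctx_of (simple : IsSimpleGroup S) (na : ¬ ∀ a b : S, a * b = b * a) (cen : centralizer (S : Set G) = ⊥)
    (min : ∀ (B : Type u) [Group B] [Finite B], Nat.card B < Nat.card G → CC B) {K : Subgroup G} (hK : IsCarter K)
    (hKS : K ⊔ S = ⊤) : Ctx G S := by
  have hnil : Group.IsNilpotent (G ⧸ S) := by
    have h1 := hK.1
    refine Group.nilpotent_of_surjective ((QuotientGroup.mk' S).comp K.subtype) ?_
    intro y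
    obtain ⟨y, rfl⟩ := QuotientGroup.mk'_surjective S y
    have hy : y ∈ K ⊔ S := hKS ▸ mem_top y
    rw [mem_sup_of_normal_right] at hy
    obtain ⟨k, hk, n, hn, rfl⟩ := hy
    refine ⟨⟨k, hk⟩, ?_⟩
    simp only [MonoidHom.coe_comp, Function.comp_apply, coe_subtype, QuotientGroup.mk'_apply]
    rw [QuotientGroup.eq]
    simpa using hn
  refine ⟨simple, na, cen, hnil, fun C hC => ?_, min⟩
  have h1 : IsCarter (C.map (QuotientGroup.mk' S)) := by
    refine IsCarter.map (QuotientGroup.mk'_surjective S) (fun H hH => min H ?_) hC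
    exact Cfsg.Agent.Lib.SolvableNormalP.card_lt_of_ne_top hH
  have h2 := h1.eq_top
  have h3 := congrArg (Subgroup.comap (QuotientGroup.mk' S)) h2
  rw [comap_map_eq, QuotientGroup.ker_mk', comap_top] at h3
  exact h3

/-- real elements of odd prime order -/
theorem not_dvd_of_isConj_inv (c : Ctx G S) {Y : Type*} [Group Y] (e : S ≃* Y) {l : ℕ} [hl : Fact l.Prime]
    (hl2 : l ≠ 2) (h : ∀ z : Y, z ^ l = 1 → IsConj z z⁻¹) {K : Subgroup G} (hK : IsCarter K) :
    ¬ l ∣ Nat.card ↥(K ⊓ S) := by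
  refine not_dvd_of_power c (r := l) (fun z hz ho => ?_) hK
  have h1 : (e ⟨z, hz⟩) ^ l = 1 := by
    rw [← map_pow, ← map_one e]
    congr 1
    apply Subtype.ext
    show z ^ l = 1
    rw [← ho, pow_orderOf_eq_one]
  obtain ⟨g, hg⟩ := isConj_iff.1 (h _ h1)
  have h2 : ((e.symm g : S) : G) * z * ((e.symm g : S) : G)⁻¹ = z⁻¹ := by
    have h3 := congrArg (fun y => ((e.symm y : S) : G)) hg
    simpa using h3
  refine ⟨(e.symm g : S), ?_, ?_⟩
  · rw [h2]
    intro h4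
    have h5 : z ^ 2 = 1 := by rw [sq]; nth_rw 1 [← h4]; exact inv_mul_cancel z
    have h6 := orderOf_dvd_of_pow_eq_one h5
    rw [ho] at h6
    exact hl2 ((Nat.prime_dvd_prime_iff_eq hl.out Nat.prime_two).1 h6)
  · rw [h2]
    exact inv_mem (mem_zpowers z)

/-- **`K ∩ S` is a `2`-group.** -/
theorem two_of_rad (c : Ctx G S) {Y : Type*} [Group Y] (e : S ≃* Y) {r : ℕ} [hr : Fact r.Prime] (hr2 : r ≠ 2)
    (hR : RadY r Y) (h : ∀ l : ℕ, l.Prime → l ≠ 2 → l ≠ r → ∀ z : Y, z ^ l = 1 → IsConj z z⁻¹) {K : Subgroup G}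
    (hK : IsCarter K) : IsPGroup 2 ↥(K ⊓ S) := by
  have h1 : ∀ l : ℕ, l.Prime → l ∣ Nat.card ↥(K ⊓ S) → l = 2 ∨ l = r := by
    intro l hl hld
    by_contra hne
    push Not at hne
    have : Fact l.Prime := ⟨hl⟩
    exact not_dvd_of_isConj_inv c e hne.1 (h l hl hne.1 hne.2) hK hld
  have h2 := not_dvd_of_rad hr2 (radG_of e c.cen hR) hK h1
  rw [IsPGroup.iff_card]
  refine ⟨_, Nat.eq_prime_pow_of_unique_prime_dvd Nat.card_pos.ne' ?_⟩
  intro l hl hld
  rcases h1 l hl hld with h3 | h3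
  · exact h3
  · rw [h3] at hld
    exact absurd hld h2

theorem exists_odd_char (F : Type) [Field F] [Fintype F] (hq : Odd (Fintype.card F)) :
    ∃ r : ℕ, r.Prime ∧ r ≠ 2 ∧ CharP F r := by
  obtain ⟨r, hr, hc⟩ := exists_char F
  refine ⟨r, hr, ?_, hc⟩
  rintro rfl
  have : Fact (Nat.Prime 2) := ⟨hr⟩
  obtain ⟨n, hn0, hn⟩ := FamField.exists_card (F := F) 2
  rw [Nat.card_eq_fintype_card] at hn
  rw [hn] at hq
  exact (Nat.not_even_iff_odd.2 hq) (Nat.even_pow.2 ⟨even_two, hn0.ne'⟩)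

theorem three_le_card (F : Type) [Field F] [Fintype F] (hq : Odd (Fintype.card F)) : 3 ≤ Fintype.card F := by
  have h1 := Fintype.one_lt_card (α := F)
  obtain ⟨m, hm⟩ := hq
  omega

theorem two_g2 (c : Ctx G S) (F : Type) [Field F] [Fintype F] (hq : Odd (Fintype.card F))
    (e : S ≃* ↥(chevG2.group F)) {K : Subgroup G} (hK : IsCarter K) : IsPGroup 2 ↥(K ⊓ S) := by
  obtain ⟨r, hr, hr2, hc⟩ := exists_odd_char F hq
  have : Fact r.Prime := ⟨hr⟩
  exact two_of_rad c e hr2 (radY_g2 hr2 (three_le_card F hq)) (fun l hl _ hlr z hz =>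
    isConj_inv g2T inv_G2 odd_one (center_eq_bot_of_simple (S1055.result (exists_ne_algClosed _)))
      (Cfsg.Agent.H696.GmnNeg.negG2 g2T _) hl hlr hz) hK

theorem two_f4 (c : Ctx G S) (F : Type) [Field F] [Fintype F] (hq : Odd (Fintype.card F))
    (e : S ≃* ↥(chevF4.group F)) {K : Subgroup G} (hK : IsCarter K) : IsPGroup 2 ↥(K ⊓ S) := by
  obtain ⟨r, hr, hr2, hc⟩ := exists_odd_char F hq
  have : Fact r.Prime := ⟨hr⟩
  exact two_of_rad c e hr2 (radY_f4 hr2) (fun l hl _ hlr z hz =>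
    isConj_inv f4T inv_F4 odd_one (center_eq_bot_of_simple (S1054.result chevF4 (by simp)))
      (Cfsg.Agent.H696.GmnNeg.negF4 f4T _) hl hlr hz) hK

theorem two_e7 (c : Ctx G S) (F : Type) [Field F] [Fintype F] (hq : Odd (Fintype.card F))
    (e : S ≃* ↥(chevE7.group F)) {K : Subgroup G} (hK : IsCarter K) : IsPGroup 2 ↥(K ⊓ S) := by
  obtain ⟨r, hr, hr2, hc⟩ := exists_odd_char F hq
  have : Fact r.Prime := ⟨hr⟩
  exact two_of_rad c e hr2 (radY_e7 hr2) (fun l hl _ hlr z hz =>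
    isConj_iff.2 (Cfsg.Agent.H486.OnE7.real_e7_odd hr2 hl hlr hz)) hK

theorem two_e8 (c : Ctx G S) (F : Type) [Field F] [Fintype F] (hq : Odd (Fintype.card F))
    (e : S ≃* ↥(chevE8.group F)) {K : Subgroup G} (hK : IsCarter K) : IsPGroup 2 ↥(K ⊓ S) := by
  obtain ⟨r, hr, hr2, hc⟩ := exists_odd_char F hq
  have : Fact r.Prime := ⟨hr⟩
  exact two_of_rad c e hr2 (radY_e8 hr2) (fun l hl _ hlr z hz =>
    isConj_inv e8T inv_E8 odd_one (center_eq_bot_of_simple (S1054.result chevE8 (by simp)))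
      (Cfsg.Agent.H696.GmnNeg.negE8 e8T _) hl hlr hz) hK

/-- all Carter subgroups meet `S` in `2`-groups -/
theorem cc_of_two (hF : Fpf.{u}) (c : Ctx G S) (h : ∀ K : Subgroup G, IsCarter K → IsPGroup 2 ↥(K ⊓ S)) : CC G := by
  have : Fact (Nat.Prime 2) := ⟨Nat.prime_two⟩
  exact cc_of_l hF c 2 h

theorem row_g2 (hF : Fpf.{u}) (c : Ctx G S) (F : Type) [Field F] [Fintype F] (hq : Odd (Fintype.card F))
    (e : S ≃* ↥(chevG2.group F)) : CC G := cc_of_two hF c fun _ hK => two_g2 c F hq e hK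

theorem row_f4 (hF : Fpf.{u}) (c : Ctx G S) (F : Type) [Field F] [Fintype F] (hq : Odd (Fintype.card F))
    (e : S ≃* ↥(chevF4.group F)) : CC G := cc_of_two hF c fun _ hK => two_f4 c F hq e hK

theorem row_e7 (hF : Fpf.{u}) (c : Ctx G S) (F : Type) [Field F] [Fintype F] (hq : Odd (Fintype.card F))
    (e : S ≃* ↥(chevE7.group F)) : CC G := cc_of_two hF c fun _ hK => two_e7 c F hq e hK

theorem row_e8 (hF : Fpf.{u}) (c : Ctx G S) (F : Type) [Field F] [Fintype F] (hq : Odd (Fintype.card F))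
    (e : S ≃* ↥(chevE8.group F)) : CC G := cc_of_two hF c fun _ hK => two_e8 c F hq e hK

end

end Cfsg.Agent.H381.Car
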