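import Cfsg.Agent.H381.Car.RadTow
import Cfsg.Agent.H696.GmnInv

/-!
# Radical subgroups of `G₂(q)`, `F₄(q)`, `E₇(q)`, `E₈(q)`, `q` odd (S3852, helper381)
-/

set_option autoImplicit false
set_option linter.unusedSectionVars false

namespace Cfsg.Agent.H381.Car

open CoxeterSystem Subgroup Cfsg Cfsg.Lie Cfsg.Lie.ChevalleyDatum
open Cfsg.Agent.ChevalleyStructure Cfsg.Agent.ChevalleyStructure.Elts Cfsg.Agent.ChevalleyStructure.CoxeterGeom
  Cfsg.Agent.ChevalleyStructure.CoxeterGeomTypes Cfsg.Agent.ChevalleyStructure.NPerm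
open Cfsg.Agent.Tits.Roots Cfsg.Agent.Tits.Core Cfsg.Agent.Nodes Cfsg.Agent.Nodes.Reps Cfsg.Agent.Nodes.BNOf
  Cfsg.Agent.Nodes.RGDChev Cfsg.Agent.Nodes.Bruhat Cfsg.Agent.Nodes.StabComb Cfsg.Agent.Nodes.LeviDec
open Cfsg.Agent.KFacts.RgdAut Cfsg.Agent.KFacts.RgdDiag Cfsg.Agent.KFacts.RgdRigid
  Cfsg.Agent.KFacts.RgdField Cfsg.Agent.KFacts.RgdTau Cfsg.Agent.KFacts.RgdChevCoord
  Cfsg.Agent.CpAut.RgdUntw Cfsg.Agent.CpAut.RgdConj
open Cfsg.Agent.GpExc.Field (glMap emb coe_emb glMap_xG emb_injective coe_glMap)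
open Cfsg.Agent.BpExc Cfsg.Agent.BpExc.TorCent Cfsg.Agent.BpExc.TorChev Cfsg.Agent.BpExc.Tow
open Cfsg.Agent.BpExc.TowChev Cfsg.Agent.BpExc.Fr Cfsg.Agent.BpExc.LangFr
open Cfsg.Agent.BpExc.FamUntw Cfsg.Agent.BpExc.FamInst Cfsg.Agent.BpExc.FamExt Cfsg.Agent.BpExc.FamField
open Cfsg.Agent.BpExc.FamFrame Cfsg.Agent.BpExc.RowsUntw
open Cfsg.Agent.H696.GmnToral Cfsg.Agent.H696.GmnUntw

universe v

variable {D : ChevalleyDatum} {l : ℕ} {M : CoxeterMatrix (Fin l)} (hp : IsType D l M) {r : ℕ} [Fact r.Prime]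
  {F : Type} [Field F] [Fintype F] [CharP F r] {k : Type} [Field k] [IsAlgClosed k] (hk : LocFin k) [CharP k r]
  (f : F →+* k) {W : Type v} [Group W] (cs : CoxeterSystem M W)

/-- the automorphisms of odd order of `D.group F` -/
theorem exists_form {d : ℕ} {B : Fin l → Fin l → ℤ} (hB : InvC D l d B) (hd : d ≠ 0) (hM : SymTwo M)
    (hF1 : IsSimpleGroup ↥(D.group F) ∧ ¬ IsMulCommutative ↥(D.group F)) {m : ℕ} (hm : Odd m)
    {α : MulAut ↥(D.group F)} (hα : α ^ m = 1) :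
    ∃ (g : ↥(D.group F)) (t : ↥(D.group k)) (j : ℕ), t ∈ TT D k ∧
      (∀ a, IsRoot cs hp.isCartan a → ∀ y ∈ XX D l F a, g * α y * g⁻¹ ∈ XX D l F a) ∧
      ∀ y, emb hp.inList f (α y) = (MulAut.conj ((emb hp.inList f g)⁻¹ * t) * phi D k r j) (emb hp.inList f y) := by
  obtain ⟨hFs, hFc⟩ := hF1
  have hZF := center_eq_bot_of_simple ⟨hFs, hFc⟩
  have hW := finite_W hp cs
  have R := rgd (K := F) hp cs r
  have C := coords (K := F) hp cs r
  have H := coroots (K := F) hp cs r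
  have hG1 : RGD.Sup (XX D l F) {x | IsRoot cs hp.isCartan x} = ⊤ := G1_eq_top hp cs
  have hG := TorChev.GG_top (K := F) hp cs
  have hconn := KFacts.RgdLieCharP.conn_of_simple R hG1 hZF
  have hl : Nonempty (Fin l) := by
    rw [← Fin.pos_iff_nonempty]
    rcases Nat.eq_zero_or_pos l with h0 | h0
    · exfalso
      subst h0
      have h1 : (⊤ : Subgroup ↥(D.group F)) = ⊥ := by
        rw [← hG1, eq_bot_iff]
        refine RGD.Sup_le fun x hx => ?_
        obtain ⟨w, i, -⟩ := hx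
        exact i.elim0
      apply hFc
      have h2 : ∀ g : ↥(D.group F), g = 1 := fun g => by
        have : g ∈ (⊤ : Subgroup ↥(D.group F)) := Subgroup.mem_top g
        rwa [h1, Subgroup.mem_bot] at this
      exact ⟨⟨fun a b => by rw [h2 a, h2 b]⟩⟩
    · exact h0
  have hroots : ∀ c : F, c ≠ 0 → ∃ b : k, b ^ d = f c := fun c _ =>
    IsAlgClosed.exists_pow_nat_eq (f c) (Nat.pos_of_ne_zero hd)
  have hσ : ∀ σ : Equiv.Perm (Fin l), (∀ i j, M (σ i) (σ j) = M i j) → σ ^ m = 1 → σ = 1 := by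
    intro σ h1 h2
    have h3 := Nat.dvd_gcd (orderOf_dvd_of_pow_eq_one h2) (orderOf_dvd_of_pow_eq_one (hM σ h1))
    have h4 : Nat.gcd m 2 = 1 := Nat.coprime_two_right.2 hm
    rw [h4, Nat.dvd_one] at h3
    exact orderOf_eq_one_iff.1 h3
  obtain ⟨g, τ, hτ, -⟩ := exists_frame_tau R hG C H hconn hσ hα
  obtain ⟨j, hj⟩ := exists_pow_eq r τ
  obtain ⟨t, ht, e⟩ := exists_ext hp f r hconn hB hd hroots hτ (τ' := FamField.frb k r j) (fun a => by
    rw [FamField.frb_apply, hj, map_pow])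
  refine ⟨g, t, j, ht, ?_, ?_⟩
  · intro a ha y hy
    obtain ⟨c, hc, h1⟩ := Tau.root R C hτ ha
    obtain ⟨b, rfl⟩ := ((C.coord a ha).mem y).1 hy
    have h2 := h1 b
    rw [MulAut.mul_apply, MulAut.conj_apply] at h2
    rw [h2]
    exact ((C.coord a ha).mem _).2 ⟨_, rfl⟩
  · intro y
    have h1 := e y
    rw [MulAut.mul_apply, MulAut.conj_apply, map_mul, map_mul, map_inv] at h1
    have h2 : emb hp.inList f (α y) = (emb hp.inList f g)⁻¹ * (emb hp.inList f g * emb hp.inList f (α y) *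
      (emb hp.inList f g)⁻¹) * emb hp.inList f g := by group
    rw [h2, h1, MulAut.mul_apply, MulAut.conj_apply]
    show _ * (t * phi D k r j (emb hp.inList f y) * t⁻¹) * _ = _
    group

/-! ### pairs of automorphisms -/

section Rel

/-- `Φ` induces `α` -/
def Rel (α : MulAut ↥(D.group F)) (Φ : MulAut ↥(D.group k)) : Prop :=
  ∀ y, emb hp.inList f (α y) = Φ (emb hp.inList f y)

variable {hp f}

theorem Rel.mul {α β : MulAut ↥(D.group F)} {Φ Ψ : MulAut ↥(D.group k)} (h : Rel hp f α Φ) (h' : Rel hp f β Ψ) :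
    Rel hp f (α * β) (Φ * Ψ) := fun y => by
  rw [MulAut.mul_apply, MulAut.mul_apply, h, h']

theorem Rel.inv {α : MulAut ↥(D.group F)} {Φ : MulAut ↥(D.group k)} (h : Rel hp f α Φ) : Rel hp f α⁻¹ Φ⁻¹ := fun y => by
  apply Φ.injective
  rw [MulAut.apply_inv_self, ← h, MulAut.apply_inv_self]

theorem Rel.one : Rel hp f (1 : MulAut ↥(D.group F)) (1 : MulAut ↥(D.group k)) := fun _ => rfl

theorem Rel.pow {α : MulAut ↥(D.group F)} {Φ : MulAut ↥(D.group k)} (h : Rel hp f α Φ) (m : ℕ) :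
    Rel hp f (α ^ m) (Φ ^ m) := by
  induction m with
  | zero => rw [pow_zero, pow_zero]; exact Rel.one
  | succ m ih => rw [pow_succ, pow_succ]; exact ih.mul h

theorem Rel.of_phi {n : ℕ} (hn : Nat.card F = r ^ n) : Rel hp f (1 : MulAut ↥(D.group F)) (phi D k r n) := fun y =>
  (phi_emb hp r f hn y).symm

end Rel

section Phi

theorem phi_zero : phi D k r 0 = 1 := by
  have h := phi_pow (D := D) (k := k) r 0 0
  rw [pow_zero, zero_mul] at h
  exact h.symm

theorem phi_add (i j : ℕ) : phi D k r (i + j) = phi D k r i * phi D k r j := by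
  have h := phi_pow (D := D) (k := k) r 1
  have h1 := h (i + j)
  rw [one_mul, pow_add, h, h, one_mul, one_mul] at h1
  exact h1.symm

theorem conj_phi_mul (s s' : ↥(D.group k)) (i j : ℕ) : (MulAut.conj s * phi D k r i) * (MulAut.conj s' * phi D k r j) =
    MulAut.conj (s * phi D k r i s') * phi D k r (i + j) := by
  rw [phi_add, map_mul]
  have h := mul_conj (phi D k r i) s'
  calc MulAut.conj s * phi D k r i * (MulAut.conj s' * phi D k r j)
      = MulAut.conj s * (phi D k r i * MulAut.conj s') * phi D k r j := by group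
    _ = _ := by rw [h]; group

theorem conj_phi_div (s s' : ↥(D.group k)) {i j : ℕ} (hij : i ≤ j) :
    (MulAut.conj s * phi D k r j) * (MulAut.conj s' * phi D k r i)⁻¹ =
      MulAut.conj (s * phi D k r (j - i) s'⁻¹) * phi D k r (j - i) := by
  rw [mul_inv_eq_iff_eq_mul, conj_phi_mul, Nat.sub_add_cancel hij]
  congr 2
  rw [map_inv, mul_assoc, inv_mul_cancel, mul_one]

/-- powers of `conj s * phi i` -/
theorem conj_phi_pow {P : Subgroup ↥(D.group k)} (hP : ∀ j, ∀ y ∈ P, phi D k r j y ∈ P) {s : ↥(D.group k)} (hs : s ∈ P)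
    (i a : ℕ) : ∃ s' ∈ P, (MulAut.conj s * phi D k r i) ^ a = MulAut.conj s' * phi D k r (i * a) := by
  induction a with
  | zero => exact ⟨1, one_mem _, by rw [pow_zero, mul_zero, phi_zero, map_one, mul_one]⟩
  | succ a ih =>
    obtain ⟨s', hs', e⟩ := ih
    refine ⟨s' * phi D k r (i * a) s, mul_mem hs' (hP _ _ hs), ?_⟩
    rw [pow_succ, e, conj_phi_mul, Nat.mul_succ]

theorem conj_inj (hZ : center ↥(D.group k) = ⊥) {a b : ↥(D.group k)} (h : MulAut.conj a = MulAut.conj b) : a = b := by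
  have h1 : a⁻¹ * b ∈ center ↥(D.group k) := by
    rw [mem_center_iff]
    intro g
    have h2 := congrArg (fun σ : MulAut ↥(D.group k) => σ g) h
    simp only [MulAut.conj_apply] at h2
    have h3 : a * g * a⁻¹ * b = b * g := by rw [h2]; group
    calc g * (a⁻¹ * b) = a⁻¹ * (a * g * a⁻¹ * b) := by group
      _ = a⁻¹ * b * g := by rw [h3]; group
  rw [hZ, mem_bot, inv_mul_eq_one] at h1
  exact h1

variable {cs}

theorem fr_VJ {σ : MulAut ↥(D.group k)} (Fr' : Fr cs hp.isCartan (TT D k) (XX D l k) σ (AddEquiv.refl _))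
    {J : Set (Fin l)} {y : ↥(D.group k)} (hy : y ∈ VJ cs hp.isCartan (XX D l k) J) :
    σ y ∈ VJ cs hp.isCartan (XX D l k) J := by
  have h1 : (VJ cs hp.isCartan (XX D l k) J).map σ.toMonoidHom = VJ cs hp.isCartan (XX D l k) J := by
    unfold VJ
    rw [Fr'.map_Sup (S := NotJ cs hp.isCartan J) (S' := NotJ cs hp.isCartan J) (fun _ ha => ha.1) (fun _ => Iff.rfl)]
  rw [← h1]
  exact ⟨y, hy, rfl⟩

theorem fr_PJ {σ : MulAut ↥(D.group k)} (Fr' : Fr cs hp.isCartan (TT D k) (XX D l k) σ (AddEquiv.refl _))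
    {J : Set (Fin l)} {y : ↥(D.group k)} (hy : y ∈ PJ cs hp.isCartan (TT D k) (XX D l k) J) :
    σ y ∈ PJ cs hp.isCartan (TT D k) (XX D l k) J := by
  have h1 : (PJ cs hp.isCartan (TT D k) (XX D l k) J).map σ.toMonoidHom = PJ cs hp.isCartan (TT D k) (XX D l k) J := by
    unfold PJ LJ VJ
    rw [Subgroup.map_sup, Subgroup.map_sup, Fr'.map_T,
      Fr'.map_Sup (S := RootsJ cs hp.isCartan J) (S' := RootsJ cs hp.isCartan J) (fun _ ha => ha.1) (fun _ => Iff.rfl),
      Fr'.map_Sup (S := NotJ cs hp.isCartan J) (S' := NotJ cs hp.isCartan J) (fun _ ha => ha.1) (fun _ => Iff.rfl)]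
  rw [← h1]
  exact ⟨y, hy, rfl⟩

end Phi

section Unique

include hk in
/-- an automorphism `conj s * phi j` trivial on `D.group F`: `s = 1` and `n ∣ j` -/
theorem rel_one {n : ℕ} (hn : Nat.card F = r ^ n) (hZ : center ↥(D.group k) = ⊥) (h0 : 0 < D.nroots)
    {s : ↥(D.group k)} {j : ℕ} (h : Rel hp f 1 (MulAut.conj s * phi D k r j)) : s = 1 ∧ n ∣ j := by
  let _ : Algebra (ZMod r) F := ZMod.algebra F r
  have hs : s = 1 := by
    refine eq_one_of_comm hp hk r (f.comp (algebraMap (ZMod r) F)) hZ fun y => ?_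
    have h1 := h (emb hp.inList (algebraMap (ZMod r) F) y)
    rw [emb_comp, MulAut.one_apply, MulAut.mul_apply, MulAut.conj_apply] at h1
    have h2 : phi D k r j (emb hp.inList (f.comp (algebraMap (ZMod r) F)) y) =
        emb hp.inList (f.comp (algebraMap (ZMod r) F)) y := by
      have h3 : ∀ a : ZMod r, FamField.frb k r j ((f.comp (algebraMap (ZMod r) F)) a) =
          (f.comp (algebraMap (ZMod r) F)) ((1 : ZMod r ≃+* ZMod r) a) := by
        intro a
        rw [FamField.frb_apply, ← map_pow, ZMod.pow_card_pow]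
        rfl
      unfold phi
      rw [fld_emb hp (f.comp (algebraMap (ZMod r) F)) h3, fld_one]
      rfl
    rw [h2] at h1
    rw [eq_mul_inv_iff_mul_eq] at h1
    exact h1.symm
  refine ⟨hs, ?_⟩
  rw [← forall_pow_iff r hn]
  intro a
  have h1 := h (xc hp (vec D l 0) a)
  rw [hs, map_one, one_mul, MulAut.one_apply, emb_xc hp f h0] at h1
  have h2 : phi D k r j (xc hp (vec D l 0) (f a)) = xc hp (vec D l 0) (f a ^ r ^ j) := by
    unfold phi
    rw [fld_xc hp _ h0, FamField.frb_apply]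
  rw [h2] at h1
  have h3 := xc_inj hp h0 h1
  rw [← map_pow] at h3
  exact (f.injective h3).symm

end Unique

/-! ### from the finite group to `D.group k` -/

section Emb

theorem emb_PJ {J : Set (Fin l)} {y : ↥(D.group F)} (hy : y ∈ PJ cs hp.isCartan (TT D F) (XX D l F) J) :
    emb hp.inList f y ∈ PJ cs hp.isCartan (TT D k) (XX D l k) J := by
  have h1 : PJ cs hp.isCartan (TT D F) (XX D l F) J ≤
      (PJ cs hp.isCartan (TT D k) (XX D l k) J).comap (emb hp.inList f) := by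
    refine sup_le (sup_le ?_ (RGD.Sup_le fun a ha => ?_)) (RGD.Sup_le fun a ha => ?_)
    · intro t ht
      exact (le_sup_left.trans le_sup_left : TT D k ≤ _) (GpExc.Field.emb_T hp f ⟨t, ht, rfl⟩)
    · intro t ht
      exact (X_le_LJ ha).trans le_sup_left (GpExc.Field.emb_X hp f cs ha.1 ⟨t, ht, rfl⟩)
    · intro t ht
      exact (RGD.le_Sup ha : XX D l k a ≤ VJ cs hp.isCartan (XX D l k) J).trans le_sup_right
        (GpExc.Field.emb_X hp f cs ha.1 ⟨t, ht, rfl⟩)
  exact h1 hy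

theorem emb_VJ {J : Set (Fin l)} {y : ↥(D.group F)} (hy : y ∈ VJ cs hp.isCartan (XX D l F) J) :
    emb hp.inList f y ∈ VJ cs hp.isCartan (XX D l k) J := by
  have h1 : VJ cs hp.isCartan (XX D l F) J ≤ (VJ cs hp.isCartan (XX D l k) J).comap (emb hp.inList f) := by
    refine RGD.Sup_le fun a ha => ?_
    intro t ht
    exact (RGD.le_Sup ha : XX D l k a ≤ VJ cs hp.isCartan (XX D l k) J)
        (GpExc.Field.emb_X hp f cs ha.1 ⟨t, ht, rfl⟩)
  exact h1 hy

include hk in
theorem conj_VJ (r : ℕ) [Fact r.Prime] [CharP k r] {J : Set (Fin l)} {y v : ↥(D.group k)} (hy : y ∈ PJ cs hp.isCartan (TT D k) (XX D l k) J)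
    (hv : v ∈ VJ cs hp.isCartan (XX D l k) J) : y * v * y⁻¹ ∈ VJ cs hp.isCartan (XX D l k) J := by
  have h := PJL_conj_mem (tow hp cs hk r (k := k)) (J := J) (y := y) (v := v)
  rw [TL_eq hp hk, XL_eq hp hk] at h
  exact h hy hv

/-- fixed elements of the Frobenius automorphism normalise `D.group F` -/
theorem fixed_conj_mem {n : ℕ} (hn : Fintype.card F = r ^ n) {y : ↥(D.group k)} (hy : phi D k r n y = y)
    {x : ↥(D.group k)} (hx : x ∈ (emb hp.inList f).range) : y * x * y⁻¹ ∈ (emb hp.inList f).range :=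
  Emb.conj_mem_range hp.inList (f := f) (frh_apply r hn) (phi_glMap r n) hy hx

end Emb

section Main

theorem le_normalizer_of_conj_le [Finite F] {Q : Subgroup ↥(D.group F)} {g : ↥(D.group F)}
    (h : ∀ y ∈ Q, g * y * g⁻¹ ∈ Q) : g ∈ normalizer (Q : Set ↥(D.group F)) := by
  have h1 : Q.map (MulAut.conj g).toMonoidHom ≤ Q := by
    rintro _ ⟨y, hy, rfl⟩
    exact h y hy
  have h2 : Q.map (MulAut.conj g).toMonoidHom = Q := by
    refine eq_of_le_of_card_ge h1 ?_
    rw [card_map_of_injective (MulAut.conj g).injective]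
  rw [mem_normalizer_iff_map_conj_eq]
  exact h2

variable {n : ℕ}

include hp hk f cs in
/-- **The `E`-property** of the unipotent radicals. -/
theorem radConc {d : ℕ} {B : Fin l → Fin l → ℤ} (hB : InvC D l d B) (hd : ∀ m : ℕ, Odd m → m.Coprime d) (hd0 : d ≠ 0)
    (hM : SymTwo M) (hF1 : IsSimpleGroup ↥(D.group F) ∧ ¬ IsMulCommutative ↥(D.group F))
    (hZ : center ↥(D.group k) = ⊥) (h0 : 0 < D.nroots) (hr2 : r ≠ 2)
    (hodd : ∀ s, s < D.nroots → ∃ j : Fin l, Odd (D.cartan j s))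
    (J : Set (Fin l))
    (hrad : ∀ R : Subgroup ↥(D.group F), IsPGroup r R →
      R ≤ normalizer (VJ cs hp.isCartan (XX D l F) J : Set ↥(D.group F)) →
      normalizer (VJ cs hp.isCartan (XX D l F) J : Set ↥(D.group F)) ≤ normalizer (R : Set ↥(D.group F)) →
      R ≤ VJ cs hp.isCartan (XX D l F) J)
    (hN : normalizer (VJ cs hp.isCartan (XX D l F) J : Set ↥(D.group F)) = PJ cs hp.isCartan (TT D F) (XX D l F) J)
    (A : Subgroup (MulAut ↥(D.group F))) (hA : Odd (Nat.card A))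
    (hAQ : ∀ a ∈ A, ∀ y, a y ∈ VJ cs hp.isCartan (XX D l F) J ↔ y ∈ VJ cs hp.isCartan (XX D l F) J)
    (hAI : ∀ y : ↥(D.group F), MulAut.conj y ∈ A → y ∈ VJ cs hp.isCartan (XX D l F) J) :
    ∃ E : Subgroup ↥(D.group F), E ≤ normalizer (VJ cs hp.isCartan (XX D l F) J : Set ↥(D.group F)) ∧ IsPGroup 2 E ∧
      (∀ a ∈ A, ∀ x ∈ E, x * (a x)⁻¹ ∈ VJ cs hp.isCartan (XX D l F) J) ∧
      ∀ z ∈ VJ cs hp.isCartan (XX D l F) J, (∀ x ∈ E, x * z = z * x) → z = 1 := by
  classical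
  have hW := finite_W hp cs
  obtain ⟨n, hn0, hn⟩ := exists_card (F := F) r
  have hq : Fintype.card F = r ^ n := by rw [← hn, Nat.card_eq_fintype_card]
  set Q := VJ cs hp.isCartan (XX D l F) J with hQ
  set VL := VJ cs hp.isCartan (XX D l k) J with hVL
  set PL := PJ cs hp.isCartan (TT D k) (XX D l k) J with hPL
  have hTP : TT D k ≤ PL := le_sup_left.trans le_sup_left
  have hVP : VL ≤ PL := le_sup_right
  have Fphi : ∀ j, Fr cs hp.isCartan (TT D k) (XX D l k) (phi D k r j) (AddEquiv.refl _) := fun j => phi_fr hp cs r hk j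
  have hphiP : ∀ j, ∀ y ∈ PL, phi D k r j y ∈ PL := fun j y hy => fr_PJ hp (Fphi j) hy
  -- the elements of `A`
  have hform : ∀ α ∈ A, ∃ s ∈ PL, ∃ j : ℕ, Rel hp f α (MulAut.conj s * phi D k r j) := by
    intro α hα
    have hαm : α ^ Nat.card A = 1 := by
      have h1 : (⟨α, hα⟩ : A) ^ Nat.card A = 1 := pow_card_eq_one'
      exact congrArg Subtype.val h1
    obtain ⟨g, t, j, ht, hg, h⟩ := exists_form hp f cs hB hd0 hM hF1 hA hαm
    have hgN : g ∈ normalizer (Q : Set ↥(D.group F)) := by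
      have h1 : Q ≤ Q.comap ((MulAut.conj g * α : MulAut ↥(D.group F)).toMonoidHom) := by
        refine RGD.Sup_le fun a ha => ?_
        intro y hy
        exact RGD.le_Sup ha (hg a ha.1 y hy)
      refine le_normalizer_of_conj_le fun y hy => ?_
      have h2 : α⁻¹ y ∈ Q := by rw [← hAQ α hα, MulAut.apply_inv_self]; exact hy
      have h3 := h1 h2
      have h4 : (MulAut.conj g * α : MulAut ↥(D.group F)).toMonoidHom (α⁻¹ y) = g * y * g⁻¹ := by
        show g * α (α⁻¹ y) * g⁻¹ = _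
        rw [MulAut.apply_inv_self]
      rw [mem_comap, h4] at h3
      exact h3
    rw [hN] at hgN
    refine ⟨(emb hp.inList f g)⁻¹ * t, mul_mem (inv_mem (emb_PJ hp f cs hgN)) (hTP ht), j, h⟩
  have hApow : ∀ α ∈ A, α ^ Nat.card A = 1 := by
    intro α hα
    have h1 : (⟨α, hα⟩ : A) ^ Nat.card A = 1 := pow_card_eq_one'
    exact congrArg Subtype.val h1
  have hconjpow : ∀ (s : ↥(D.group k)) (m : ℕ), (MulAut.conj s) ^ m = MulAut.conj (s ^ m) := fun s m =>
    (map_pow MulAut.conj s m).symm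
  -- the elements of `A` induced by inner automorphisms of `D.group k`
  have hinn : ∀ α ∈ A, ∀ s, Rel hp f α (MulAut.conj s) → ∃ y ∈ Q, α = MulAut.conj y ∧ s = emb hp.inList f y := by
    intro α hα s h
    have h1 : s ^ Nat.card A = 1 := by
      have h2 := h.pow (Nat.card A)
      rw [hApow α hα, hconjpow] at h2
      refine (rel_one hp hk f hn hZ h0 (j := 0) (s := s ^ Nat.card A) ?_).1
      rw [phi_zero, mul_one]
      exact h2
    have h2 : phi D k r n s = s := by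
      have h3 := ((Rel.of_phi (f := f) (hp := hp) (k := k) hn).mul h).mul (Rel.of_phi (f := f) (hp := hp) (k := k) hn).inv
      rw [one_mul, inv_one, mul_one, mul_conj, mul_inv_cancel_right] at h3
      have h4 := h.inv.mul h3
      rw [inv_mul_cancel, ← map_inv, ← map_mul] at h4
      have h5 := (rel_one hp hk f hn hZ h0 (j := 0) (s := s⁻¹ * phi D k r n s) (by rw [phi_zero, mul_one]; exact h4)).1
      exact (inv_mul_eq_one.1 h5).symm
    obtain ⟨x, hx⟩ := pow_mem_range hp hk f r cs hB hd0 hZ hq h2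
    have h3 : s ∈ (emb hp.inList f).range := H696.GmnInv.mem_of_pow h1 (hd _ hA) ⟨x, hx⟩
    obtain ⟨y, rfl⟩ := h3
    have h4 : α = MulAut.conj y := by
      apply MulEquiv.ext
      intro z
      apply emb_injective hp.inList f
      rw [h z, MulAut.conj_apply, MulAut.conj_apply, map_mul, map_mul, map_inv]
    exact ⟨y, hAI y (h4 ▸ hα), h4, rfl⟩
  -- the generator
  have hex : ∃ j : ℕ, 0 < j ∧ ∃ α ∈ A, ∃ s ∈ PL, Rel hp f α (MulAut.conj s * phi D k r j) :=
    ⟨n, hn0, 1, one_mem _, 1, one_mem _, by rw [map_one, one_mul]; exact Rel.of_phi hn⟩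
  obtain ⟨hi0, α0, hα0, s0, hs0, hrel0⟩ := Nat.find_spec hex
  set i0 := Nat.find hex with hi0def
  have hmin : ∀ j, 0 < j → (∃ α ∈ A, ∃ s ∈ PL, Rel hp f α (MulAut.conj s * phi D k r j)) → i0 ≤ j := fun j h1 h2 =>
    Nat.find_min' hex ⟨h1, h2⟩
  have hdiv : ∀ α ∈ A, ∀ s ∈ PL, ∀ j, Rel hp f α (MulAut.conj s * phi D k r j) →
      i0 ∣ j ∧ ∃ a : ℕ, ∃ y ∈ Q, α = MulAut.conj y * α0 ^ a := by
    intro α hα s hs j h
    obtain ⟨s', hs', e⟩ := conj_phi_pow (r := r) hphiP hs0 i0 (j / i0)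
    have h1 := h.mul ((hrel0.pow (j / i0)).inv)
    rw [e, conj_phi_div s s' (Nat.mul_div_le j i0)] at h1
    have h2 : j - i0 * (j / i0) = j % i0 := by
      have := Nat.div_add_mod j i0
      omega
    rw [h2] at h1
    have h3 : j % i0 = 0 := by
      by_contra hne
      have h4 := hmin (j % i0) (Nat.pos_of_ne_zero hne) ⟨_, mul_mem hα (inv_mem (pow_mem hα0 _)), _,
        mul_mem hs (hphiP _ _ (inv_mem hs')), h1⟩
      exact absurd (Nat.mod_lt j hi0) (not_lt.2 h4)
    refine ⟨Nat.dvd_of_mod_eq_zero h3, j / i0, ?_⟩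
    rw [h3, phi_zero, mul_one] at h1
    obtain ⟨y, hy, hy1, -⟩ := hinn _ (mul_mem hα (inv_mem (pow_mem hα0 _))) _ h1
    exact ⟨y, hy, by rw [← hy1, inv_mul_cancel_right]⟩
  obtain ⟨⟨e, he⟩, -⟩ := hdiv 1 (one_mem _) 1 (one_mem _) n (by rw [map_one, one_mul]; exact Rel.of_phi hn)
  -- the norm
  obtain ⟨sE, hsE, hpowE⟩ := conj_phi_pow (r := r) hphiP hs0 i0 e
  rw [← he] at hpowE
  have hsEV : sE ∈ VL := by
    have h1 := (hrel0.pow e).mul (Rel.of_phi (f := f) (hp := hp) (k := k) hn).inv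
    rw [hpowE, inv_one, mul_one, mul_inv_cancel_right] at h1
    obtain ⟨y, hy, -, rfl⟩ := hinn _ (pow_mem hα0 _) _ h1
    exact emb_VJ hp f cs hy
  -- Lang
  obtain ⟨y1, hy1, hy1s⟩ := lang_PJ hp cs hk hZ hi0 (phi_isFrob r i0) (Fphi i0) hs0
  have hphiy1 : phi D k r i0 y1 = y1 * s0 := by rw [hy1s]; group
  have hsE1 : sE = y1⁻¹ * phi D k r n y1 := by
    apply conj_inj hZ
    have h1 : MulAut.conj s0 * phi D k r i0 = (MulAut.conj y1)⁻¹ * phi D k r i0 * MulAut.conj y1 := by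
      rw [mul_assoc, mul_conj, ← mul_assoc, ← map_inv, ← map_mul, ← hy1s]
    have h2 : (MulAut.conj s0 * phi D k r i0) ^ e = (MulAut.conj y1)⁻¹ * phi D k r n * MulAut.conj y1 := by
      have h3 : ∀ (x g : MulAut ↥(D.group k)) (m : ℕ), (x⁻¹ * g * x) ^ m = x⁻¹ * g ^ m * x := by
        intro x g m
        induction m with
        | zero => group
        | succ m ih => rw [pow_succ, ih, pow_succ]; group
      rw [h1, h3, phi_pow, ← he]
    rw [hpowE, mul_assoc, mul_conj, ← mul_assoc, ← map_inv, ← map_mul] at h2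
    exact mul_right_cancel h2
  obtain ⟨w, hw, hws⟩ := lang_VJ hp cs hk hn0 (phi_isFrob r n) (Fphi n) hsEV
  have hphiw : phi D k r n w = w * sE := by rw [hws]; group
  have hphiy1n : phi D k r n y1 = y1 * sE := by rw [hsE1]; group
  obtain ⟨y, hydef⟩ : ∃ y, y = y1 * w⁻¹ := ⟨_, rfl⟩
  have hyP : y ∈ PL := by rw [hydef]; exact mul_mem hy1 (inv_mem (hVP hw))
  have hyfix : phi D k r n y = y := by
    rw [hydef, map_mul, map_inv, hphiy1n, hphiw]
    group
  have hv' : y * s0 * (phi D k r i0 y)⁻¹ ∈ VL := by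
    have h1 : y * s0 * (phi D k r i0 y)⁻¹ = y1 * (w⁻¹ * (s0 * phi D k r i0 w * s0⁻¹)) * y1⁻¹ := by
      rw [hydef, map_mul, map_inv, hphiy1]
      group
    rw [h1]
    exact conj_VJ hp hk cs r hy1 (mul_mem (inv_mem hw) (conj_VJ hp hk cs r hs0 (fr_VJ hp (Fphi i0) hw)))
  -- `Q = VL ∩ D.group F`
  have hQt : VL.comap (emb hp.inList f) = Q := by
    have hp1 : IsPGroup r VL := by
      have h1 := isPGroup_VJL (tow hp cs hk r (k := k)) J
      rwa [XL_eq hp hk] at h1
    have hp2 : IsPGroup r (VL.comap (emb hp.inList f)) := hp1.comap_of_injective _ (emb_injective hp.inList f)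
    refine eq_of_inf_normalizer_le (fun x hx => emb_VJ hp f cs hx) hp2 ?_
    refine hrad _ (hp2.to_le inf_le_left) inf_le_right (le_normalizer_inf ?_ le_normalizer)
    intro g hg
    rw [hN] at hg
    refine le_normalizer_of_conj_le fun x hx => ?_
    rw [mem_comap] at hx ⊢
    rw [map_mul, map_mul, map_inv]
    exact conj_VJ hp hk cs r (emb_PJ hp f cs hg) hx
  have hNP : ∀ x, emb hp.inList f x ∈ PL → x ∈ normalizer (Q : Set ↥(D.group F)) := by
    intro x hx
    rw [← hQt]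
    refine le_normalizer_of_conj_le fun z hz => ?_
    rw [mem_comap] at hz ⊢
    rw [map_mul, map_mul, map_inv]
    exact conj_VJ hp hk cs r hx hz
  -- the elements of order two of the torus
  let T2 : Subgroup ↥(D.group k) :=
    { carrier := {t | t ∈ TT D k ∧ t ^ 2 = 1}
      one_mem' := ⟨one_mem _, one_pow 2⟩
      mul_mem' := fun {a b} ha hb => ⟨mul_mem ha.1 hb.1, by
        rw [(show Commute a b from TT_comm hp a ha.1 b hb.1).mul_pow, ha.2, hb.2, one_mul]⟩
      inv_mem' := fun {a} ha => ⟨inv_mem ha.1, by rw [inv_pow, ha.2, inv_one]⟩ }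
  have hT2fix : ∀ t ∈ T2, phi D k r i0 t = t := by
    rintro t ⟨ht, ht2⟩
    refine ext_TT hp cs hk r hZ (((Fphi i0).tor t).2 ht) ht fun a ha => ?_
    have h1 := fr_ch hp cs hk (phi_isFrob r i0) (Fphi i0) ha ht
    have h2 : ch hp a t ^ 2 = 1 := by
      rw [← ch_pow hp cs hk r ha ht, ht2, ch_one hp cs hk r ha]
    have hro : Odd (r ^ i0) := ((Fact.out : r.Prime).odd_of_ne_two hr2).pow
    obtain ⟨c, hc⟩ := hro
    rw [hc, pow_add, pow_mul, h2, one_pow, pow_one, one_mul] at h1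
    exact h1
  let E : Subgroup ↥(D.group F) := T2.comap ((MulAut.conj y).toMonoidHom.comp (emb hp.inList f))
  have hE : ∀ x, x ∈ E ↔ y * emb hp.inList f x * y⁻¹ ∈ T2 := fun x => Iff.rfl
  have hEP : ∀ x ∈ E, emb hp.inList f x ∈ PL := by
    intro x hx
    have h1 := hTP ((hE x).1 hx).1
    have h2 := mul_mem (mul_mem (inv_mem hyP) h1) hyP
    have e1 : y⁻¹ * (y * emb hp.inList f x * y⁻¹) * y = emb hp.inList f x := by group
    rwa [e1] at h2
  -- `α₀`
  have hE0 : ∀ x ∈ E, x * (α0 x)⁻¹ ∈ Q := by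
    intro x hx
    rw [← hQt, mem_comap, map_mul, map_inv, hrel0 x, MulAut.mul_apply, MulAut.conj_apply]
    obtain ⟨t, ht⟩ : ∃ t, t = y * emb hp.inList f x * y⁻¹ := ⟨_, rfl⟩
    have htT : t ∈ T2 := by rw [ht]; exact (hE x).1 hx
    have hx1 : emb hp.inList f x = y⁻¹ * t * y := by rw [ht]; group
    have h1 := hT2fix t htT
    obtain ⟨v', hv'def⟩ : ∃ v', v' = y * s0 * (phi D k r i0 y)⁻¹ := ⟨_, rfl⟩
    rw [← hv'def] at hv'
    have h2 : phi D k r i0 y = v'⁻¹ * (y * s0) := by rw [hv'def]; group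
    rw [hx1, map_mul, map_mul, map_inv, h1, h2]
    have h3 : y⁻¹ * t * y * (s0 * ((v'⁻¹ * (y * s0))⁻¹ * t * (v'⁻¹ * (y * s0))) * s0⁻¹)⁻¹ =
        y⁻¹ * ((t * v' * t⁻¹) * v'⁻¹) * y⁻¹⁻¹ := by group
    rw [h3]
    exact conj_VJ hp hk cs r (inv_mem hyP) (mul_mem (conj_VJ hp hk cs r (hTP htT.1) hv') (inv_mem hv'))
  have hEN : E ≤ normalizer (Q : Set ↥(D.group F)) := fun x hx => hNP x (hEP x hx)
  refine ⟨E, hEN, ?_, ?_, ?_⟩
  · rintro ⟨x, hx⟩
    refine ⟨1, Subtype.ext ?_⟩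
    show x ^ 2 ^ 1 = 1
    rw [pow_one]
    have h1 := ((hE x).1 hx).2
    have h2 : (y * emb hp.inList f x * y⁻¹) ^ 2 = y * emb hp.inList f (x ^ 2) * y⁻¹ := by
      rw [map_pow, conj_pow]
    rw [h2, mul_inv_eq_one, mul_eq_left] at h1
    apply emb_injective hp.inList f
    rw [h1, map_one]
  · intro α hα x hx
    obtain ⟨s, hs, j, hrel⟩ := hform α hα
    obtain ⟨-, a, y', hy', rfl⟩ := hdiv α hα s hs j hrel
    have h1 : ∀ a : ℕ, x * ((α0 ^ a) x)⁻¹ ∈ Q := by
      intro a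
      induction a with
      | zero => rw [pow_zero, MulAut.one_apply, mul_inv_cancel]; exact one_mem _
      | succ a ih =>
        have h2 : x * ((α0 ^ (a + 1)) x)⁻¹ = x * (α0 x)⁻¹ * α0 (x * ((α0 ^ a) x)⁻¹) := by
          rw [pow_succ', MulAut.mul_apply, map_mul, map_inv]; group
        rw [h2]
        exact mul_mem (hE0 x hx) ((hAQ α0 hα0 _).2 ih)
    have h2 : x * ((MulAut.conj y' * α0 ^ a) x)⁻¹ = (x * y' * x⁻¹) * (x * ((α0 ^ a) x)⁻¹) * y'⁻¹ := by
      rw [MulAut.mul_apply, MulAut.conj_apply]; group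
    rw [h2]
    exact mul_mem (mul_mem ((mem_normalizer_iff.1 (hEN hx) y').1 hy') (h1 a)) (inv_mem hy')
  · intro z hz hcz
    have hzV : emb hp.inList f z ∈ VL := emb_VJ hp f cs hz
    have h1 : y * emb hp.inList f z * y⁻¹ ∈ VL := conj_VJ hp hk cs r hyP hzV
    have h2 : y * emb hp.inList f z * y⁻¹ ∈ RGD.Sup (XX D l k) (RGD.Pos cs hp.isCartan) := VJ_le_U J h1
    have h3 : y * emb hp.inList f z * y⁻¹ = 1 := by
      obtain ⟨E0⟩ := nonempty_lev hk
      refine eq_one_of_centralizerL (tow hp cs hk r (k := k)) (j0 := E0)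
        (S := Set.range fun j : Fin l => hc hp j (-1 : k)) ?_ ?_ (by rw [XL_eq hp hk]; exact h2) ?_
      · rintro _ ⟨j, rfl⟩
        refine ⟨hc hp j (-1 : ↥E0.1), hc_mem hp j (neg_ne_zero.2 one_ne_zero), ?_⟩
        rw [emb_hc]
        congr 1
      · intro a ha _ u hu huc
        rw [XL_eq hp hk] at hu
        obtain ⟨s, hs, rfl⟩ := (isRoot_iff hp cs a).1 ha
        obtain ⟨c, rfl⟩ := (((coordsL hp cs hk r).coord _ ha).mem u).1 hu
        obtain ⟨j, hj⟩ := hodd s hs
        have h5 := ch_comm hp cs hk r ha (hc_mem hp j (neg_ne_zero.2 (one_ne_zero (α := k)))) c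
        rw [ch_hc hp j (neg_ne_zero.2 one_ne_zero) hs, hj.neg_one_zpow] at h5
        have h6 := huc _ ⟨j, rfl⟩
        rw [h6, mul_inv_cancel_right] at h5
        have h7 := xc_inj hp hs h5
        have h8 : (2 : k) * c = 0 := by linear_combination h7
        have h9 : (2 : k) ≠ 0 := by
          intro h10
          have h11 := (CharP.cast_eq_zero_iff k r 2).1 (by exact_mod_cast h10)
          exact hr2 ((Nat.prime_dvd_prime_iff_eq Fact.out Nat.prime_two).1 h11)
        have h10 : c = 0 := (mul_eq_zero.1 h8).resolve_left h9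
        rw [h10]
        exact ((coordsL hp cs hk r).coord _ ha).zero
      · rintro _ ⟨j, rfl⟩
        have hyfix' : phi D k r n y⁻¹ = y⁻¹ := by rw [map_inv, hyfix]
        have ht1 : emb hp.inList f (hc hp j (-1 : F)) = hc hp j (-1 : k) := by
          rw [emb_hc, map_neg, map_one]
        obtain ⟨x, hx⟩ := fixed_conj_mem hp f hq hyfix' ⟨hc hp j (-1 : F), rfl⟩
        rw [ht1, inv_inv] at hx
        have hxE : x ∈ E := by
          rw [hE, hx]
          have e1 : y * (y⁻¹ * hc hp j (-1 : k) * y) * y⁻¹ = hc hp j (-1 : k) := by group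
          rw [e1]
          have hm1 : hc hp j (-1 : k) ∈ TT D k := hc_mem hp j (neg_ne_zero.2 one_ne_zero)
          refine ⟨hm1, ext_TT hp cs hk r hZ (pow_mem hm1 2) (one_mem _) fun a ha => ?_⟩
          obtain ⟨s, hs, rfl⟩ := (isRoot_iff hp cs a).1 ha
          rw [ch_pow hp cs hk r ha hm1, ch_hc hp j (neg_ne_zero.2 one_ne_zero) hs, ch_one hp cs hk r ha, ← zpow_natCast,
            ← zpow_mul]
          exact Even.neg_one_zpow (by simp)
        have h5 := congrArg (emb hp.inList f) (hcz x hxE)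
        rw [map_mul, map_mul, hx] at h5
        calc hc hp j (-1 : k) * (y * emb hp.inList f z * y⁻¹) = y * ((y⁻¹ * hc hp j (-1 : k) * y) * emb hp.inList f z) * y⁻¹ := by
              group
          _ = y * (emb hp.inList f z * (y⁻¹ * hc hp j (-1 : k) * y)) * y⁻¹ := by rw [h5]
          _ = _ := by group
    have h4 : emb hp.inList f z = 1 := by
      calc emb hp.inList f z = y⁻¹ * (y * emb hp.inList f z * y⁻¹) * y := by group
        _ = 1 := by rw [h3]; group
    apply emb_injective hp.inList f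
    rw [h4, map_one]

include hp hk f in
/-- **`RadY`** for the untwisted groups. -/
theorem radY_group {d : ℕ} {B : Fin l → Fin l → ℤ} (hB : InvC D l d B) (hd : ∀ m : ℕ, Odd m → m.Coprime d) (hd0 : d ≠ 0)
    (hM : SymTwo M) (hF1 : IsSimpleGroup ↥(D.group F) ∧ ¬ IsMulCommutative ↥(D.group F))
    (hZ : center ↥(D.group k) = ⊥) (h0 : 0 < D.nroots) (hr2 : r ≠ 2)
    (hodd : ∀ s, s < D.nroots → ∃ j : Fin l, Odd (D.cartan j s)) : RadY r ↥(D.group F) := by
  intro Q hQ hQ1 hrad A hA hAQ hAI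
  have hW := finite_W hp M.toCoxeterSystem
  set cs : CoxeterSystem M M.Group := M.toCoxeterSystem with hcs
  obtain ⟨g, J, -, hQe, hNe⟩ := radical_eq (KFacts.RgdFiltChev.filt hp cs r) (G1_eq_top hp cs) hQ hQ1 hrad
  set V := VJ cs hp.isCartan (XX D l F) J with hV
  have hcm : ∀ x, x ∈ Q ↔ g⁻¹ * x * g ∈ V := fun x => by rw [hQe, mem_cj]
  have hcm' : ∀ x, x ∈ V ↔ g * x * g⁻¹ ∈ Q := fun x => by
    rw [hcm]
    have e1 : g⁻¹ * (g * x * g⁻¹) * g = x := by group
    rw [e1]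
  have hNV : normalizer (V : Set ↥(D.group F)) = PJ cs hp.isCartan (TT D F) (XX D l F) J := by
    have h1 : cj g (normalizer (V : Set ↥(D.group F))) = cj g (PJ cs hp.isCartan (TT D F) (XX D l F) J) := by
      rw [← Nodes.NormX.normalizer_cj, ← hQe, hNe]
    have h2 := congrArg (cj g⁻¹) h1
    rwa [cj_inv_cj, cj_inv_cj] at h2
  have hradV : ∀ R : Subgroup ↥(D.group F), IsPGroup r R → R ≤ normalizer (V : Set ↥(D.group F)) →
      normalizer (V : Set ↥(D.group F)) ≤ normalizer (R : Set ↥(D.group F)) → R ≤ V := by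
    intro R hR h1 h2
    have h3 := hrad (cj g R) (hR.map _) (by rw [hQe, Nodes.NormX.normalizer_cj]; exact cj_mono g h1)
      (by rw [hQe, Nodes.NormX.normalizer_cj, Nodes.NormX.normalizer_cj]; exact cj_mono g h2)
    rw [hQe] at h3
    exact (cj_le_cj_iff g).1 h3
  -- the conjugate group of automorphisms
  set c : MulAut ↥(D.group F) := MulAut.conj g with hc
  have hcapp : ∀ x, c x = g * x * g⁻¹ := fun x => rfl
  set A' : Subgroup (MulAut ↥(D.group F)) := A.map (MulAut.conj c⁻¹).toMonoidHom with hA'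
  have hA'm : ∀ a, a ∈ A' ↔ c * a * c⁻¹ ∈ A := by
    intro a
    constructor
    · rintro ⟨b, hb, rfl⟩
      have e1 : c * (MulAut.conj c⁻¹).toMonoidHom b * c⁻¹ = b := by
        show c * (c⁻¹ * b * c⁻¹⁻¹) * c⁻¹ = b
        group
      rw [e1]
      exact hb
    · intro h1
      refine ⟨_, h1, ?_⟩
      show c⁻¹ * (c * a * c⁻¹) * c⁻¹⁻¹ = a
      group
  have hA'c : Odd (Nat.card A') := by
    rw [hA', card_map_of_injective (MulAut.conj c⁻¹).injective]
    exact hA
  obtain ⟨E, hE1, hE2, hE3, hE4⟩ := radConc hp hk f cs hB hd hd0 hM hF1 hZ h0 hr2 hodd J hradV hNV A' hA'c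
    (by
      intro a ha y
      have h1 := hAQ _ ((hA'm a).1 ha) (g * y * g⁻¹)
      have h2 : (c * a * c⁻¹) (g * y * g⁻¹) = g * a y * g⁻¹ := by
        have h3 : g * y * g⁻¹ = c y := rfl
        rw [h3, MulAut.mul_apply, MulAut.inv_apply_self, MulAut.mul_apply]
        rfl
      rw [h2, ← hcm', ← hcm'] at h1
      exact h1)
    (by
      intro y hy
      rw [hA'm] at hy
      have h1 : c * MulAut.conj y * c⁻¹ = MulAut.conj (g * y * g⁻¹) := by
        rw [hc, ← map_inv, ← map_mul, ← map_mul]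
      rw [h1] at hy
      rw [hcm']
      exact hAI _ hy)
  refine ⟨cj g E, ?_, hE2.map _, ?_, ?_⟩
  · rw [hQe, Nodes.NormX.normalizer_cj]
    exact cj_mono g hE1
  · intro a ha x hx
    rw [mem_cj] at hx
    have ha' : c⁻¹ * a * c ∈ A' := by
      rw [hA'm]
      have e1 : c * (c⁻¹ * a * c) * c⁻¹ = a := by group
      rw [e1]
      exact ha
    have h1 := hE3 _ ha' _ hx
    rw [hcm']  at h1
    have h2 : (c⁻¹ * a * c) (g⁻¹ * x * g) = g⁻¹ * a x * g := by
      rw [MulAut.mul_apply, MulAut.mul_apply, hcapp]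
      have e1 : g * (g⁻¹ * x * g) * g⁻¹ = x := by group
      rw [e1]
      apply c.injective
      rw [MulAut.apply_inv_self, hcapp]
      group
    rw [h2] at h1
    have e1 : g * (g⁻¹ * x * g * (g⁻¹ * a x * g)⁻¹) * g⁻¹ = x * (a x)⁻¹ := by group
    rwa [e1] at h1
  · intro z hz h1
    have h2 := hE4 (g⁻¹ * z * g) ((hcm z).1 hz) fun x hx => by
      have h3 := h1 (g * x * g⁻¹) (by
        rw [mem_cj]
        have e1 : g⁻¹ * (g * x * g⁻¹) * g = x := by group
        rwa [e1])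
      calc x * (g⁻¹ * z * g) = g⁻¹ * (g * x * g⁻¹ * z) * g := by group
        _ = g⁻¹ * (z * (g * x * g⁻¹)) * g := by rw [h3]
        _ = _ := by group
    calc z = g * (g⁻¹ * z * g) * g⁻¹ := by group
      _ = 1 := by rw [h2]; group

end Main

/-! ### the rows -/

section Rows

variable {r : ℕ} [Fact r.Prime] {F : Type} [Field F] [Fintype F] [CharP F r]

theorem coprime_one (m : ℕ) (_ : Odd m) : m.Coprime 1 := Nat.coprime_one_right m

theorem coprime_two (m : ℕ) (h : Odd m) : m.Coprime 2 := Nat.coprime_two_right.2 h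

theorem odd_G2 : ∀ s, s < chevG2.nroots → ∃ j : Fin 2, Odd (chevG2.cartan j s) := by decide +kernel

theorem odd_F4 : ∀ s, s < chevF4.nroots → ∃ j : Fin 4, Odd (chevF4.cartan j s) := by decide +kernel

theorem odd_E7 : ∀ s, s < chevE7.nroots → ∃ j : Fin 7, Odd (chevE7.cartan j s) := by decide +kernel

theorem odd_E8 : ∀ s, s < chevE8.nroots → ∃ j : Fin 8, Odd (chevE8.cartan j s) := by decide +kernel

theorem radY_g2 (hr2 : r ≠ 2) (h3 : 3 ≤ Fintype.card F) : RadY r ↥(chevG2.group F) := by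
  obtain ⟨f⟩ := exists_emb r F
  exact radY_group g2T (locFin_of_isAlgebraic r (AlgebraicClosure (ZMod r))) f inv_G2 coprime_one one_ne_zero symTwo_G2
    (S1055.result (exists_ne h3)) (center_eq_bot_of_simple (S1055.result (exists_ne_algClosed _))) (by decide) hr2 odd_G2

theorem radY_f4 (hr2 : r ≠ 2) : RadY r ↥(chevF4.group F) := by
  obtain ⟨f⟩ := exists_emb r F
  exact radY_group f4T (locFin_of_isAlgebraic r (AlgebraicClosure (ZMod r))) f inv_F4 coprime_one one_ne_zero symTwo_F4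
    (S1054.result chevF4 (by simp)) (center_eq_bot_of_simple (S1054.result chevF4 (by simp))) (by decide) hr2 odd_F4

theorem radY_e7 (hr2 : r ≠ 2) : RadY r ↥(chevE7.group F) := by
  obtain ⟨f⟩ := exists_emb r F
  exact radY_group e7T (locFin_of_isAlgebraic r (AlgebraicClosure (ZMod r))) f inv_E7 coprime_two two_ne_zero symTwo_E7
    (S1054.result chevE7 (by simp)) (center_eq_bot_of_simple (S1054.result chevE7 (by simp))) (by decide) hr2 odd_E7

theorem radY_e8 (hr2 : r ≠ 2) : RadY r ↥(chevE8.group F) := by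
  obtain ⟨f⟩ := exists_emb r F
  exact radY_group e8T (locFin_of_isAlgebraic r (AlgebraicClosure (ZMod r))) f inv_E8 coprime_one one_ne_zero symTwo_E8
    (S1054.result chevE8 (by simp)) (center_eq_bot_of_simple (S1054.result chevE8 (by simp))) (by decide) hr2 odd_E8

end Rows

end Cfsg.Agent.H381.Car
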