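import Cfsg.Agent.H381.Car.EvenOne
import Cfsg.Agent.H681.GmnRankTwo
import Cfsg.Agent.H696.GmnTwD4
import Cfsg.Agent.Cit.HexInv
import Cfsg.Agent.Cit.HexD4

/-!
# Carter subgroups: the row `³D₄(q)`, `q` odd (S3852, helper381)

* `sylInv_of_sign` : an involution of the torus acting by signs on the simple root groups gives `SylInv`;
* `row_3d4`.
-/

set_option autoImplicit false
set_option linter.unusedSectionVars false

namespace Cfsg.Agent.H381.Car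

open Subgroup
open Cfsg.Agent.Solvable.Carter Cfsg.Agent.H18.Carter

universe u

section Sign

open CoxeterSystem Cfsg.Agent.ChevalleyStructure.CoxeterGeom Cfsg.Agent.Tits.Roots Cfsg.Agent.Tits.Core
  Cfsg.Agent.Tits.RootComb Cfsg.Agent.Tits.Exchange Cfsg.Agent.Nodes.Reps Cfsg.Agent.Nodes.BNOf
  Cfsg.Agent.Nodes.Comb
  Cfsg.Agent.Nodes.StabComb Cfsg.Agent.Nodes.ZFam
  Cfsg.Agent.Nodes.Bruhat Cfsg.Agent.Nodes.OppDec Cfsg.Agent.Nodes.LeviDec Cfsg.Agent.Nodes.NormalForm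
  Cfsg.Agent.KFacts.RgdOpp Cfsg.Agent.KFacts.RgdAut Cfsg.Agent.KFacts.RgdDiag Cfsg.Agent.KFacts.RgdRigid
  Cfsg.Agent.H142.GmnPC Cfsg.Agent.H681.GmnRgd

variable {I W Y : Type*} [Fintype I] [DecidableEq I] [Group W] [Group Y] {M : CoxeterMatrix I}
  {cs : CoxeterSystem M W} {A : I → I → ℤ} {h : IsCartan M A} {p : ℕ} {T : Subgroup Y} {n : I → Y}
  {X : (I → ℤ) → Subgroup Y} [Finite W] [Finite Y] [hp : Fact p.Prime] (R : RGD cs h p T n X)

include R

/-- **`SylInv` from an involution of the torus acting by signs.** -/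
theorem sylInv_of_sign (hG1 : RGD.Sup X {x | IsRoot cs h x} = ⊤) (hZ : Subgroup.center Y = ⊥)
    (hσ : ∀ (β : MulAut Y) (σ : Equiv.Perm I), Diag T X β σ → σ = 1) {t : Y} (ht : t ∈ T) (ht1 : t ≠ 1)
    (hs : ∀ i, (∀ x ∈ X (sr i), t * x * t⁻¹ = x) ∨ (∀ x ∈ X (sr i), t * x * t⁻¹ = x⁻¹)) : SylInv p Y := by
  have hG := GG_eq_top (T := T) hG1
  have ht2 : orderOf t = 2 := by
    refine orderOf_eq_prime ?_ ht1
    refine eq_one_of_cent R hG1 hZ (pow_mem ht 2) fun i x hx => ?_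
    have e : t ^ 2 * x * (t ^ 2)⁻¹ = t * (t * x * t⁻¹) * t⁻¹ := by
      rw [sq, mul_inv_rev]
      simp only [mul_assoc]
    rw [e]
    rcases hs i with h1 | h1
    · rw [h1 x hx, h1 x hx]
    · rw [h1 x hx, h1 _ (inv_mem hx), inv_inv]
  obtain ⟨P, hP⟩ := R.isPGroup_Upos.exists_le_sylow
  have hPU : (P : Subgroup Y) = RGD.Sup X (RGD.Pos cs h) :=
    eq_U_of_isPGroup R P.isPGroup' hP (by rw [hG]; exact le_top)
  refine ⟨RGD.Sup X (RGD.Pos cs h), R.isPGroup_Upos, ?_, t, ht2, fun α hα => ?_⟩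
  · rw [← hPU]
    exact P.not_dvd_index
  have hαF : Fix α (RGD.Sup X (RGD.Pos cs h)) := hα
  obtain ⟨u, hu, hFU, -, hFN, -⟩ := exists_frame R hG hαF
  obtain ⟨σ, D⟩ := exists_diag R hG hFU hFN
  obtain rfl := hσ _ _ D
  set β := MulAut.conj u * α with hβ
  have hβt : β t ∈ T := (D.tor t).2 ht
  have key : ∀ i, ∀ x ∈ X (sr i), β t * x * (β t)⁻¹ = t * x * t⁻¹ := by
    intro i x hx
    have hx' : β⁻¹ x ∈ X (sr i) := by
      have := (D.pos i (β⁻¹ x)).1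
      rw [Equiv.Perm.one_apply, MulAut.apply_inv_self] at this
      exact this hx
    have e : β t * x * (β t)⁻¹ = β (t * β⁻¹ x * t⁻¹) := by
      rw [map_mul, map_mul, map_inv, MulAut.apply_inv_self]
    rw [e]
    rcases hs i with h1 | h1
    · rw [h1 _ hx', h1 _ hx, MulAut.apply_inv_self]
    · rw [h1 _ hx', h1 _ hx, map_inv, MulAut.apply_inv_self]
  have h1 : t⁻¹ * β t = 1 := by
    refine eq_one_of_cent R hG1 hZ (mul_mem (inv_mem ht) hβt) fun i x hx => ?_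
    have e : t⁻¹ * β t * x * (t⁻¹ * β t)⁻¹ = t⁻¹ * (β t * x * (β t)⁻¹) * t := by group
    rw [e, key i x hx]
    group
  rw [inv_mul_eq_one] at h1
  -- `α t = u⁻¹ t u`
  have h2 : u * α t * u⁻¹ = t := by
    have : β t = u * α t * u⁻¹ := by rw [hβ, MulAut.mul_apply, MulAut.conj_apply]
    rw [← this, ← h1]
  have h3 : t⁻¹ * α t = (t⁻¹ * u⁻¹ * t) * u := by
    have : α t = u⁻¹ * t * u := by
      nth_rw 2 [← h2]
      group
    rw [this]; group
  rw [h3]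
  refine mul_mem ?_ hu
  have h4 := (Subgroup.mem_normalizer_iff.1 (RGD.T_le_normalizer_U R (inv_mem ht)) u⁻¹).1 (inv_mem hu)
  rwa [inv_inv] at h4

end Sign

section D4

open Cfsg Cfsg.Lie CoxeterSystem Cfsg.Agent.Nodes
open Cfsg.Agent.Nodes.Comb Cfsg.Agent.Nodes.Reps Cfsg.Agent.Tits.Roots
open Cfsg.Agent.Nodes.BNOf Cfsg.Agent.Nodes.RGDTwD4 Cfsg.Agent.KFacts.TwDFour.Out Cfsg.Agent.Nodes.RGDFoldSL
  Cfsg.Agent.KFacts.RgdField Cfsg.Agent.ChevalleyStructure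
  Cfsg.Agent.ChevalleyStructure.CoxeterGeom Cfsg.Agent.KFacts.RgdDiag Cfsg.Agent.KFacts.RgdNodes

theorem sylInv_twD4 {K : Type*} [Field K] [Fintype K] {q : ℕ} (hq : IsPrimePow q) (hK : Fintype.card K = q ^ 3)
    {p : ℕ} [CharP K p] (hp2 : p ≠ 2) (hZ : Subgroup.center ↥(twistedD4 K q) = ⊥) :
    SylInv p ↥(twistedD4 K q) := by
  have hp : Fact p.Prime := ⟨CharP.char_is_prime K p⟩
  obtain ⟨φ, hφ⟩ := D4Fixed.exists_frob hq hK
  have hW : Finite CoxeterMatrix.G₂.Group := finiteW CoxeterMatrix.G₂.toCoxeterSystem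
  have R := Nodes.RGDTwD4.rgd CoxeterMatrix.G₂.toCoxeterSystem hK hφ p
  have h1 : (-1 : KD φ 0) ≠ 0 := neg_ne_zero.2 one_ne_zero
  have hc0 := chD_hS hφ hK 0 (-1) h1
  have hc1 := ch01 hφ hK (-1) h1
  have ht := PhiD_hS hφ hK 0 (-1) h1
  have hneg : ∀ x ∈ Nodes.RGDTwD4.X φ q (sr 1), PhiD hφ hK 0 (hS (-1)) * x * (PhiD hφ hK 0 (hS (-1)))⁻¹ = x⁻¹ := by
    intro x hx
    obtain ⟨a, rfl⟩ := ((coordD hφ hK 1).mem x).1 hx
    rw [(coordD hφ hK 1).act _ ht, eq_inv_iff_mul_eq_one, ← (coordD hφ hK 1).add]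
    have h2 : chD hφ hK 1 (PhiD hφ hK 0 (hS (-1))) = -1 := by
      apply Subtype.ext
      rw [hc1]
      simp
    rw [h2, neg_one_mul, neg_add_cancel]
    exact (coordD hφ hK 1).zero
  refine sylInv_of_sign R (Nodes.RGDTwD4.G1_eq_top _ hK hφ) hZ ?_ ht
    (Cfsg.Agent.H681.GmnRankTwo.ne_one_of_inverts hp2 R hneg) fun i => ?_
  · intro β σ D
    apply perm_G2 σ
    intro h3
    have h4 := Diag.card_eq D 0
    rw [h3] at h4
    exact card_ne hφ hK hq.one_lt h4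
  fin_cases i
  · left
    intro x hx
    obtain ⟨a, rfl⟩ := ((coordD hφ hK 0).mem x).1 hx
    rw [(coordD hφ hK 0).act _ ht]
    have h2 : chD hφ hK 0 (PhiD hφ hK 0 (hS (-1))) = 1 := by
      rw [hc0]; simp
    rw [h2, one_mul]
  · exact Or.inr hneg

end D4

section Row

open Cfsg Cfsg.Lie Cfsg.Agent.BpExc Cfsg.Agent.H696.GmnUntw

variable {G : Type u} [Group G] [Finite G] {S : Subgroup G} [S.Normal]

/-- **`³D₄(q)`, `q` odd.** -/
theorem row_3d4 (hF : Fpf.{u}) (c : Ctx G S) {K : Type} [Field K] [Fintype K] {q : ℕ} (hq : IsPrimePow q)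
    (hodd : Odd q) (hK : Fintype.card K = q ^ 3) (e : S ≃* ↥(twistedD4 K q)) : CC G := by
  obtain ⟨r, n, hr, hn0, hn⟩ := (isPrimePow_nat_iff _).1 hq
  have hrr : Fact r.Prime := ⟨hr⟩
  have hch : CharP K r := by
    obtain ⟨p, hp⟩ := CharP.exists K
    obtain ⟨m, h1, h2⟩ := FiniteField.card K p
    have h3 : p ∣ r ^ (n * 3) := by
      rw [pow_mul, hn, ← hK, h2]
      exact dvd_pow_self p m.ne_zero
    have h4 := (Nat.prime_dvd_prime_iff_eq h1 hr).1 (h1.dvd_of_dvd_pow h3)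
    rwa [h4] at hp
  have hr2 : r ≠ 2 := by
    rintro rfl
    rw [← hn] at hodd
    exact (Nat.not_even_iff_odd.2 hodd) (Nat.even_pow.2 ⟨even_two, hn0.ne'⟩)
  have hZ : center ↥(twistedD4 K q) = ⊥ := center_eq_bot_of_simple (S1071.result hq hK)
  refine cc_of_one_class' c e (fun s t hs ht => ?_) fun C hC => ?_
  · obtain ⟨σ, -, ⟨x⟩⟩ := Cfsg.Agent.Cit.HexD4.exists_d4 hK
    have h2 : (2 : K) ≠ 0 := by
      intro h
      have h1 := (CharP.cast_eq_zero_iff K r 2).1 (by exact_mod_cast h)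
      exact hr2 ((Nat.prime_dvd_prime_iff_eq hr Nat.prime_two).1 h1)
    have key : ∀ s : ↥(twistedD4 K q), orderOf s = 2 → s * s = 1 ∧ s ≠ 1 := by
      intro s hs
      refine ⟨by rw [← sq, ← hs, pow_orderOf_eq_one], ?_⟩
      rintro rfl
      rw [orderOf_one] at hs
      exact absurd hs (by norm_num)
    exact x.isConj_invol h2 (key s hs).1 (key s hs).2 (key t ht).1 (key t ht).2
  · refine even_of_sylInv hF c e hr2 (sylInv_twD4 hq hK hr2 hZ) hC fun l hl hld => ?_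
    by_contra hne
    push Not at hne
    have : Fact l.Prime := ⟨hl⟩
    exact not_dvd_of_isConj_inv c e hne.1
      (fun z hz => Cfsg.Agent.H696.GmnTwD4.isConj_inv_d4 hne.2 hn0 hn.symm hK hz) hC hld

end Row

end Cfsg.Agent.H381.Car
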