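import Cfsg.Agent.H381.Car.RowTwD4
import Cfsg.Agent.KFacts.TwESix.OutTwo
import Cfsg.Agent.Nodes.RGDTwActE6

/-!
# Carter subgroups: `SylInv` for `E₆(q)`, `²E₆(q)` (task T11) (S3852, helper381)
-/

set_option autoImplicit false
set_option linter.unusedSectionVars false

namespace Cfsg.Agent.H381.Car

open Subgroup
open Cfsg.Agent.Solvable.Carter Cfsg.Agent.H18.Carter

universe u

section Sign

open CoxeterSystem Cfsg.Agent.ChevalleyStructure.CoxeterGeom Cfsg.Agent.Tits.Roots Cfsg.Agent.Tits.Core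
  Cfsg.Agent.Tits.RootComb Cfsg.Agent.Tits.Exchange Cfsg.Agent.Nodes.Reps Cfsg.Agent.Nodes.BNOf
  Cfsg.Agent.Nodes.Comb
  Cfsg.Agent.Nodes.StabComb Cfsg.Agent.Nodes.ZFam
  Cfsg.Agent.Nodes.Bruhat Cfsg.Agent.Nodes.OppDec Cfsg.Agent.Nodes.LeviDec Cfsg.Agent.Nodes.NormalForm
  Cfsg.Agent.KFacts.RgdOpp Cfsg.Agent.KFacts.RgdAut Cfsg.Agent.KFacts.RgdDiag Cfsg.Agent.KFacts.RgdRigid
  Cfsg.Agent.H142.GmnPC Cfsg.Agent.H681.GmnRgd

variable {I W Y : Type*} [Fintype I] [DecidableEq I] [Group W] [Group Y] {M : CoxeterMatrix I}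
  {cs : CoxeterSystem M W} {A : I → I → ℤ} {h : IsCartan M A} {p : ℕ} {T : Subgroup Y} {n : I → Y}
  {X : (I → ℤ) → Subgroup Y} [Finite W] [Finite Y] [hp : Fact p.Prime] (R : RGD cs h p T n X)

include R

/-- **`SylInv` from an involution of the torus acting by signs**, the signs are invariant under the diagram. -/
theorem sylInv_of_sign' (hG1 : RGD.Sup X {x | IsRoot cs h x} = ⊤) (hZ : Subgroup.center Y = ⊥) {P : I → Prop}
    (hσ : ∀ (β : MulAut Y) (σ : Equiv.Perm I), Diag T X β σ → ∀ i, P (σ i) ↔ P i) {t : Y} (ht : t ∈ T) (ht1 : t ≠ 1)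
    (hs : ∀ i, (P i ∧ ∀ x ∈ X (sr i), t * x * t⁻¹ = x) ∨ (¬ P i ∧ ∀ x ∈ X (sr i), t * x * t⁻¹ = x⁻¹)) : SylInv p Y := by
  have hG := GG_eq_top (T := T) hG1
  have ht2 : orderOf t = 2 := by
    refine orderOf_eq_prime ?_ ht1
    refine eq_one_of_cent R hG1 hZ (pow_mem ht 2) fun i x hx => ?_
    have e : t ^ 2 * x * (t ^ 2)⁻¹ = t * (t * x * t⁻¹) * t⁻¹ := by
      rw [sq, mul_inv_rev]
      simp only [mul_assoc]
    rw [e]
    rcases hs i with ⟨-, h1⟩ | ⟨-, h1⟩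
    · rw [h1 x hx, h1 x hx]
    · rw [h1 x hx, h1 _ (inv_mem hx), inv_inv]
  obtain ⟨Q, hQ⟩ := R.isPGroup_Upos.exists_le_sylow
  have hPU : (Q : Subgroup Y) = RGD.Sup X (RGD.Pos cs h) :=
    eq_U_of_isPGroup R Q.isPGroup' hQ (by rw [hG]; exact le_top)
  refine ⟨RGD.Sup X (RGD.Pos cs h), R.isPGroup_Upos, ?_, t, ht2, fun α hα => ?_⟩
  · rw [← hPU]
    exact Q.not_dvd_index
  have hαF : Fix α (RGD.Sup X (RGD.Pos cs h)) := hα
  obtain ⟨u, hu, hFU, -, hFN, -⟩ := exists_frame R hG hαF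
  obtain ⟨σ, D⟩ := exists_diag R hG hFU hFN
  have hP := hσ _ _ D
  set β := MulAut.conj u * α with hβ
  have hβt : β t ∈ T := (D.tor t).2 ht
  have key : ∀ i, ∀ x ∈ X (sr i), β t * x * (β t)⁻¹ = t * x * t⁻¹ := by
    intro i x hx
    obtain ⟨j, rfl⟩ := σ.surjective i
    have hx' : β⁻¹ x ∈ X (sr j) := by
      have := (D.pos j (β⁻¹ x)).1
      rw [MulAut.apply_inv_self] at this
      exact this hx
    have e : β t * x * (β t)⁻¹ = β (t * β⁻¹ x * t⁻¹) := by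
      rw [map_mul, map_mul, map_inv, MulAut.apply_inv_self]
    rw [e]
    rcases hs j with ⟨h0, h1⟩ | ⟨h0, h1⟩
    · rcases hs (σ j) with ⟨h2, h3⟩ | ⟨h2, h3⟩
      · rw [h1 _ hx', h3 _ hx, MulAut.apply_inv_self]
      · exact absurd ((hP j).2 h0) h2
    · rcases hs (σ j) with ⟨h2, h3⟩ | ⟨h2, h3⟩
      · exact absurd ((hP j).1 h2) h0
      · rw [h1 _ hx', h3 _ hx, map_inv, MulAut.apply_inv_self]
  have h1 : t⁻¹ * β t = 1 := by
    refine eq_one_of_cent R hG1 hZ (mul_mem (inv_mem ht) hβt) fun i x hx => ?_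
    have e : t⁻¹ * β t * x * (t⁻¹ * β t)⁻¹ = t⁻¹ * (β t * x * (β t)⁻¹) * t := by group
    rw [e, key i x hx]
    group
  rw [inv_mul_eq_one] at h1
  -- `α t = u⁻¹ t u`
  have h2 : u * α t * u⁻¹ = t := by
    have : β t = u * α t * u⁻¹ := by rw [hβ, MulAut.mul_apply, MulAut.conj_apply]
    rw [← this, ← h1]
  have h3 : t⁻¹ * α t = (t⁻¹ * u⁻¹ * t) * u := by
    have : α t = u⁻¹ * t * u := by
      nth_rw 2 [← h2]
      group
    rw [this]; group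
  rw [h3]
  refine mul_mem ?_ hu
  have h4 := (Subgroup.mem_normalizer_iff.1 (RGD.T_le_normalizer_U R (inv_mem ht)) u⁻¹).1 (inv_mem hu)
  rwa [inv_inv] at h4

end Sign

section E6

open Cfsg Cfsg.Lie CoxeterSystem Cfsg.Agent.Nodes Cfsg.Agent.Nodes.RGDChev
open Cfsg.Agent.Nodes.Comb Cfsg.Agent.Nodes.Reps Cfsg.Agent.Tits.Roots
open Cfsg.Agent.Nodes.BNOf Cfsg.Agent.KFacts.RgdField Cfsg.Agent.ChevalleyStructure
  Cfsg.Agent.ChevalleyStructure.CoxeterGeom Cfsg.Agent.KFacts.RgdDiag Cfsg.Agent.KFacts.RgdNodes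

/-- the node `3` of the diagram `E₆` is fixed -/
theorem perm_E6 (σ : Equiv.Perm (Fin 6)) (hσ : ∀ a b, CoxeterMatrix.E₆ (σ a) (σ b) = CoxeterMatrix.E₆ a b) : σ 3 = 3 := by
  have h1 : ∀ i, ![1, 1, 2, 3, 2, 1] (σ i) = ![1, 1, 2, 3, 2, 1] i :=
    H681.GmnTypes.inv_step hσ (g := fun _ => 1) (fun _ => rfl) (by decide)
  have h2 : ∀ a : Fin 6, ![1, 1, 2, 3, 2, 1] a = 3 → a = 3 := by decide
  exact h2 _ (h1 3)

/-- **T11 for `E₆(q)`.** -/
theorem sylInv_e6 {K : Type*} [Field K] [Finite K] {p : ℕ} [CharP K p] (hp2 : p ≠ 2)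
    (hZ : Subgroup.center ↥(chevE6.group K) = ⊥) : SylInv p ↥(chevE6.group K) := by
  have hp : Fact p.Prime := ⟨CharP.char_is_prime K p⟩
  have hT : IsType chevE6 6 CoxeterMatrix.E₆ := by simp [IsType, typeList]
  set cs := CoxeterMatrix.E₆.toCoxeterSystem with hcs
  have := RGDChev.finite_W hT cs
  have R := RGDChev.rgd (K := K) hT cs p
  have H := ChevCls.exists_inv (K := K) hT cs 3
  have hpar : ∀ i : Fin 6, Odd (Coroot.cpr cs hT.isCartan (sr i) (sr 3)) ↔ CoxeterMatrix.E₆ 3 i = 3 := by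
    intro i
    rw [Coroot.cpr_sr, ZFam.pairing_sr']
    revert i
    decide +kernel
  have h1 : Odd (Coroot.cpr cs hT.isCartan (sr 1) (sr 3)) := (hpar 1).2 (by decide)
  refine sylInv_of_sign' R (RGDChev.G1_eq_top hT cs) hZ
    (P := fun i => Even (Coroot.cpr cs hT.isCartan (sr i) (sr 3))) (fun β σ D i => ?_) H.mem
    (H681.GmnRankTwo.ne_one_of_inverts hp2 R (H.odd _ (isRoot_sr cs _ 1) h1)) fun i => ?_
  · have h3 := perm_E6 σ fun a b => D.matrix R a b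
    rw [← not_iff_not, Int.not_even_iff_odd, Int.not_even_iff_odd, hpar, hpar]
    have h4 := D.matrix R 3 i
    rw [h3] at h4
    rw [h4]
  · rcases Int.even_or_odd (Coroot.cpr cs hT.isCartan (sr i) (sr 3)) with h2 | h2
    · exact Or.inl ⟨h2, H.even _ (isRoot_sr cs _ i) h2⟩
    · exact Or.inr ⟨Int.not_even_iff_odd.2 h2, H.odd _ (isRoot_sr cs _ i) h2⟩

end E6

section TwE6

open Cfsg Cfsg.Lie CoxeterSystem Cfsg.Agent.Nodes
open Cfsg.Agent.Nodes.Comb Cfsg.Agent.Nodes.Reps Cfsg.Agent.Tits.Roots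
open Cfsg.Agent.Nodes.BNOf Cfsg.Agent.Nodes.RGDTwE6 Cfsg.Agent.Nodes.RGDTwCoord Cfsg.Agent.Nodes.RGDTwCoordE6
  Cfsg.Agent.KFacts.RgdField Cfsg.Agent.ChevalleyStructure
  Cfsg.Agent.ChevalleyStructure.CoxeterGeom Cfsg.Agent.KFacts.RgdDiag Cfsg.Agent.KFacts.RgdNodes
open Cfsg.Agent.Nodes.RGDTwActE6 (hh OkN sc conj_hh coe_hh mem_X x_add x_zero)

/-- **T11 for `²E₆(q)`.** -/
theorem sylInv_twE6 {K : Type*} [Field K] [Fintype K] {q : ℕ} (hq : IsPrimePow q) (hK : Fintype.card K = q ^ 2)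
    {p : ℕ} [CharP K p] (hp2 : p ≠ 2) (hZ : Subgroup.center ↥(twistedE6 K q) = ⊥) :
    SylInv p ↥(twistedE6 K q) := by
  have hp : Fact p.Prime := ⟨CharP.char_is_prime K p⟩
  obtain ⟨φ, hφ, hqq⟩ := TwE6Basic.exists_frob hq hK
  set cs := CoxeterMatrix.F₄.toCoxeterSystem with hcs
  have hfin := RGDFold.finite_W (hp := RGDTwE6.hp) cs RGDTwE6.isCartan RGDTwE6.foldData
  have R := RGDTwE6.rgd cs hφ hqq p
  have h0 : (-1 : K) ≠ 0 := neg_ne_zero.2 one_ne_zero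
  have hok : OkN φ 0 (-1 : K) := Or.inr (by rw [map_neg, map_one])
  obtain ⟨-, ht⟩ := coe_hh (q := q) hφ hqq h0 hok
  have hsc : ∀ i : Fin 4, sc φ 0 (sr i) (-1 : K) = if i = 1 then -1 else 1 := by
    intro i
    have e : sc φ 0 (sr i) (-1 : K) = (-1 : K) ^ (RGDTwE6.A 0 i) := by
      unfold sc
      rw [if_pos (by decide), ZFam.pairing_sr']
    rw [e]
    have hA : ∀ i : Fin 4, RGDTwE6.A 0 i = if i = 0 then 2 else if i = 1 then -1 else 0 := by decide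
    rw [hA]
    fin_cases i
    · show (-1 : K) ^ (2 : ℤ) = 1
      norm_num
    · show (-1 : K) ^ (-1 : ℤ) = -1
      norm_num
    · show (-1 : K) ^ (0 : ℤ) = 1
      norm_num
    · show (-1 : K) ^ (0 : ℤ) = 1
      norm_num
  have hinv : ∀ x ∈ X φ q (sr 1), hh φ q 0 (-1) * x * (hh φ q 0 (-1))⁻¹ = x⁻¹ := by
    intro y hy
    have hr := isRoot_sr cs RGDTwE6.isCartan 1
    obtain ⟨a, ha, rfl⟩ := (mem_X (cs := cs) hφ hqq hr y).1 hy
    obtain ⟨h2, h3⟩ := conj_hh (cs := cs) hφ hqq hr h0 hok ha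
    rw [hsc, if_pos rfl] at h2 h3
    rw [h3, eq_inv_iff_mul_eq_one, ← x_add (cs := cs) hφ hqq hr (Ok.mul h2 ha) ha]
    have e : (-1 : K) * a + a = 0 := by ring
    rw [e]
    exact x_zero (cs := cs) hφ hqq hr
  refine sylInv_of_sign R (RGDTwE6.G1_eq_top cs hφ hqq) hZ (fun β σ D => ?_) ht
    (H681.GmnRankTwo.ne_one_of_inverts hp2 R hinv) fun i => ?_
  · apply KFacts.TwESix.OutTwo.perm_F4 σ (D.matrix R)
    intro h3
    have h4 := Diag.card_eq D 0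
    rw [h3] at h4
    exact KFacts.TwESix.OutTwo.card_ne hφ hqq hK hq.one_lt h4
  · by_cases hi : i = 1
    · subst hi; exact Or.inr hinv
    · left
      intro y hy
      have hr := isRoot_sr cs RGDTwE6.isCartan i
      obtain ⟨a, ha, rfl⟩ := (mem_X (cs := cs) hφ hqq hr y).1 hy
      obtain ⟨h2, h3⟩ := conj_hh (cs := cs) hφ hqq hr h0 hok ha
      rw [h3, hsc, if_neg hi, one_mul]

end TwE6

end Cfsg.Agent.H381.Car
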